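import Mathlib.LinearAlgebra.Projection
import Mathlib.LinearAlgebra.Dual.Lemmas
import Mathlib.LinearAlgebra.BilinearForm.Properties
import Mathlib.LinearAlgebra.FiniteDimensional.Basic

/-!
# Systems of transvections: the calculus of pairs `(v, φ)`

A transvection `x ↦ x + φ x • v` is recorded by the pair `(v, φ)`. A `Sys` is a set of pairs closed
under the operations available in a group with no normal unipotent subgroup.
-/

set_option autoImplicit false

namespace Cfsg.Agent.Lib.TransvGen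

open Module

universe u v

variable {K : Type u} [Field K] {V : Type v} [AddCommGroup V] [Module K V]

/-- The closure properties of the set of transvections of a linear group. -/
structure Sys (R : V → Dual K V → Prop) : Prop where
  two : (2 : K) ≠ 0
  van : ∀ v φ, R v φ → φ v = 0
  zl : ∀ φ, R 0 φ
  zr : ∀ v, R v 0
  addl : ∀ v w φ, R v φ → R w φ → R (v + w) φ
  addr : ∀ v φ ψ, R v φ → R v ψ → R v (φ + ψ)
  smull : ∀ (a : K) v φ, R v φ → R (a • v) φ
  smulr : ∀ (a : K) v φ, R v φ → R v (a • φ)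
  conj : ∀ v φ u γ, R v φ → R u γ → R (v + γ v • u) (φ - φ u • γ)
  par : ∀ y δ c β, R (y + c) (δ + β) → R (y - c) (δ - β) → R y δ → y + c ≠ 0 → y - c ≠ 0 →
    y ≠ 0 → δ + β ≠ 0 → δ - β ≠ 0 → δ ≠ 0 → δ c = 0 → β y = 0 → R c β
  opp : ∀ v φ, R v φ → v ≠ 0 → φ ≠ 0 → ∃ w ψ, R w ψ ∧ φ w ≠ 0 ∧ ψ v ≠ 0

/-- The vectors fixed by all the transvections. -/
def fixR (R : V → Dual K V → Prop) : Submodule K V :=
  ⨅ (v : V) (φ : Dual K V) (_ : R v φ) (_ : v ≠ 0), LinearMap.ker φ

theorem mem_fixR {R : V → Dual K V → Prop} {x : V} :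
    x ∈ fixR R ↔ ∀ v φ, R v φ → v ≠ 0 → φ x = 0 := by
  simp [fixR, Submodule.mem_iInf]

/-- The space spanned by the centres. -/
def moveR (R : V → Dual K V → Prop) : Submodule K V :=
  Submodule.span K {v | ∃ φ, R v φ ∧ φ ≠ 0}

theorem mem_moveR {R : V → Dual K V → Prop} {v : V} {φ : Dual K V} (h : R v φ) (hφ : φ ≠ 0) :
    v ∈ moveR R := Submodule.subset_span ⟨φ, h, hφ⟩

variable {R : V → Dual K V → Prop}

/-- A submodule containing everything outside a proper subset closed under differences. -/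
theorem le_of_forall_notMem {W S H : Submodule K V} {x₀ : V} (hx₀ : x₀ ∈ W) (hx₀H : x₀ ∉ H)
    (h : ∀ x ∈ W, x ∉ H → x ∈ S) : W ≤ S := by
  intro x hx
  by_cases hxH : x ∈ H
  · have h1 := h (x + x₀) (add_mem hx hx₀) (fun h' => hx₀H ((add_mem_cancel_left hxH).1 h'))
    have h2 := h x₀ hx₀ hx₀H
    simpa using sub_mem h1 h2
  · exact h x hx hxH

namespace Sys

variable (hR : Sys R)
include hR

/-- The centres of the transvections with a given functional. -/
def leftSet (φ : Dual K V) : Submodule K V where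
  carrier := {v | R v φ}
  zero_mem' := hR.zl φ
  add_mem' ha hb := hR.addl _ _ _ ha hb
  smul_mem' a _ hv := hR.smull a _ _ hv

/-- The functionals of the transvections with a given centre. -/
def rightSet (v : V) : Submodule K (Dual K V) where
  carrier := {φ | R v φ}
  zero_mem' := hR.zr v
  add_mem' ha hb := hR.addr _ _ _ ha hb
  smul_mem' a _ hφ := hR.smulr a _ _ hφ

theorem mem_leftSet {v : V} {φ : Dual K V} : v ∈ hR.leftSet φ ↔ R v φ := Iff.rfl

theorem mem_rightSet {v : V} {φ : Dual K V} : φ ∈ hR.rightSet v ↔ R v φ := Iff.rfl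

/-- Commutator, functional side. -/
theorem comm_right {v u : V} {φ γ : Dual K V} (h1 : R v φ) (h2 : R u γ) (hv : γ v = 0)
    (hu : φ u ≠ 0) : R v γ := by
  have h := hR.conj v φ u γ h1 h2
  rw [hv, zero_smul, add_zero] at h
  have h3 := (hR.rightSet v).smul_mem (φ u)⁻¹ (sub_mem (hR.mem_rightSet.2 h1) (hR.mem_rightSet.2 h))
  rwa [sub_sub_cancel, smul_smul, inv_mul_cancel₀ hu, one_smul] at h3

/-- Commutator, centre side. -/
theorem comm_left {v u : V} {φ γ : Dual K V} (h1 : R v φ) (h2 : R u γ) (hu : φ u = 0)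
    (hv : γ v ≠ 0) : R u φ := by
  have h := hR.conj v φ u γ h1 h2
  rw [hu, zero_smul, sub_zero] at h
  have h3 := (hR.leftSet φ).smul_mem (γ v)⁻¹ (sub_mem (hR.mem_leftSet.2 h) (hR.mem_leftSet.2 h1))
  rwa [add_sub_cancel_left, smul_smul, inv_mul_cancel₀ hv, one_smul] at h3

end Sys

/-! ### Decompositions `V = W ⊕ C` -/

variable {W C : Submodule K V}

/-- A functional split along a decomposition. -/
theorem exists_dual_parts (h : IsCompl W C) (φ : Dual K V) :
    ∃ α β : Dual K V, φ = α + β ∧ C ≤ LinearMap.ker α ∧ W ≤ LinearMap.ker β := by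
  refine ⟨φ ∘ₗ W.projection C h, φ - φ ∘ₗ W.projection C h, (add_sub_cancel _ _).symm,
    fun c hc => ?_, fun w hw => ?_⟩
  · simp [Submodule.projection, (Submodule.projectionOnto_apply_eq_zero_iff h).2 hc]
  · rw [LinearMap.mem_ker, LinearMap.sub_apply, LinearMap.comp_apply,
      Submodule.projection_apply_left h ⟨w, hw⟩, sub_self]

/-- A vector split along a decomposition. -/
theorem exists_parts (h : IsCompl W C) (v : V) : ∃ w ∈ W, ∃ c ∈ C, v = w + c := by
  obtain ⟨w, hw, c, hc, e⟩ := Submodule.mem_sup.1 (h.sup_eq_top ▸ Submodule.mem_top (x := v))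
  exact ⟨w, hw, c, hc, e.symm⟩

theorem eq_zero_of_parts (h : IsCompl W C) {w c : V} (hw : w ∈ W) (hc : c ∈ C) (e : w + c = 0) :
    w = 0 ∧ c = 0 := by
  have h1 : w = 0 := Submodule.disjoint_def.1 h.disjoint w hw
    (by rw [eq_neg_of_add_eq_zero_left e]; exact neg_mem hc)
  exact ⟨h1, by rwa [h1, zero_add] at e⟩

theorem eq_zero_of_forall_left (h : IsCompl W C) {α : Dual K V} (hα : C ≤ LinearMap.ker α)
    (h0 : ∀ u ∈ W, α u = 0) : α = 0 := by
  refine LinearMap.ext fun x => ?_
  obtain ⟨w, hw, c, hc, rfl⟩ := exists_parts h x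
  rw [map_add, h0 w hw, LinearMap.mem_ker.1 (hα hc), add_zero, LinearMap.zero_apply]

theorem eq_zero_of_forall_right (h : IsCompl W C) {β : Dual K V} (hβ : W ≤ LinearMap.ker β)
    (h0 : ∀ c ∈ C, β c = 0) : β = 0 :=
  eq_zero_of_forall_left h.symm hβ h0

/-- A functional vanishing on `C` and separating a vector of `W` from a subspace of `W`. -/
theorem exists_functional (h : IsCompl W C) {x : V} (hx : x ∈ W) {S : Submodule K V}
    (hS : S ≤ W) (hxS : x ∉ S) :
    ∃ γ : Dual K V, C ≤ LinearMap.ker γ ∧ S ≤ LinearMap.ker γ ∧ γ x ≠ 0 := by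
  have hnot : x ∉ S ⊔ C := by
    intro hm
    obtain ⟨s, hs, c, hc, e⟩ := Submodule.mem_sup.1 hm
    have := eq_zero_of_parts h (sub_mem (hS hs) hx) hc (by rw [sub_add_eq_add_sub, e, sub_self])
    exact hxS (by rwa [← sub_eq_zero.1 this.1])
  obtain ⟨γ, hγx, hle⟩ := Submodule.exists_le_ker_of_notMem hnot
  exact ⟨γ, le_sup_right.trans hle, le_sup_left.trans hle, hγx⟩

/-- In a space of dimension at least three, more room. -/
theorem exists_mem_notMem_span_pair (hdim : 3 ≤ finrank K W) (a b : V) :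
    ∃ x ∈ W, x ∉ Submodule.span K ({a, b} : Set V) := by
  classical
  by_contra hc
  push Not at hc
  have h1 : W ≤ Submodule.span K ({a, b} : Set V) := hc
  have hs : (({a, b} : Finset V) : Set V) = {a, b} := by simp
  have h2 : finrank K W ≤ finrank K (Submodule.span K ({a, b} : Set V)) := by
    rw [← hs] at h1 ⊢
    exact Submodule.finrank_mono h1
  have h3 : finrank K (Submodule.span K ({a, b} : Set V)) ≤ 2 := by
    rw [← hs]
    exact (finrank_span_finset_le_card ({a, b} : Finset V)).trans Finset.card_le_two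
  omega

end Cfsg.Agent.Lib.TransvGen
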