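import Cfsg.Agent.Lib.TransvGen.Basic

/-!
# Blocks: subspaces on which all transvections of a classical group are present
-/

set_option autoImplicit false

namespace Cfsg.Agent.Lib.TransvGen

open Module

universe u v

variable {K : Type u} [Field K] {V : Type v} [AddCommGroup V] [Module K V]
  {R : V → Dual K V → Prop} {W C : Submodule K V}

/-- All transvections of `SL(W)` are present. -/
structure GoodSL (R : V → Dual K V → Prop) (W C : Submodule K V) : Prop where
  hc : IsCompl W C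
  fix : fixR R ≤ C
  dim : 3 ≤ finrank K W
  mem : ∀ u ∈ W, ∀ γ : Dual K V, C ≤ LinearMap.ker γ → γ u = 0 → R u γ

/-- All transvections of `Sp(W)` are present. -/
structure GoodSp (R : V → Dual K V → Prop) (W C : Submodule K V) (B : LinearMap.BilinForm K V) :
    Prop where
  hc : IsCompl W C
  fix : fixR R ≤ C
  alt : B.IsAlt
  left : ∀ c ∈ C, ∀ x, B c x = 0
  nd : ∀ u ∈ W, (∀ x ∈ W, B u x = 0) → u = 0
  mem : ∀ u ∈ W, R u (B u)

/-- There is a block larger than the measure `n`. -/
def Bigger (R : V → Dual K V → Prop) (n : ℕ) : Prop :=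
  ∃ W C : Submodule K V, (GoodSL R W C ∧ n < 2 * finrank K W + 1) ∨
    ∃ B, GoodSp R W C B ∧ W ≠ ⊥ ∧ n < 2 * finrank K W

/-- A full row over `W`. -/
structure Row (R : V → Dual K V → Prop) (W : Submodule K V) (β : Dual K V) : Prop where
  ne : β ≠ 0
  ker : W ≤ LinearMap.ker β
  mem : ∀ u ∈ W, R u β

/-- A full column over `W`. -/
structure Col (R : V → Dual K V → Prop) (W C : Submodule K V) (c : V) : Prop where
  ne : c ≠ 0
  mem_C : c ∈ C
  mem : ∀ γ : Dual K V, C ≤ LinearMap.ker γ → R c γ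

theorem finrank_sup_span [FiniteDimensional K V] (hc : IsCompl W C) {c : V} (hcC : c ∈ C)
    (hc0 : c ≠ 0) : finrank K ↥(W ⊔ K ∙ c) = finrank K W + 1 := by
  have h := Submodule.finrank_sup_add_finrank_inf_eq W (K ∙ c)
  rw [(hc.disjoint.mono_right ((Submodule.span_singleton_le_iff_mem c C).2 hcC)).eq_bot,
    finrank_bot, finrank_span_singleton hc0, add_zero] at h
  exact h

/-- A row and a column pairing nontrivially enlarge the special linear block. -/
theorem bigger_of_row_col [FiniteDimensional K V] (hR : Sys R) (hc : IsCompl W C)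
    (hfix : fixR R ≤ C) (hdim : 2 ≤ finrank K W) {β₀ : Dual K V} {c : V} (hrow : Row R W β₀)
    (hcol : Col R W C c) (hβc : β₀ c ≠ 0) : Bigger R (2 * finrank K W + 1) := by
  have hd := finrank_sup_span hc hcol.mem_C hcol.ne
  set β := (β₀ c)⁻¹ • β₀ with hβdef
  have hβ : β c = 1 := by rw [hβdef, LinearMap.smul_apply, smul_eq_mul, inv_mul_cancel₀ hβc]
  have hβR : ∀ u ∈ W, R u β := fun u hu => hR.smulr _ _ _ (hrow.mem u hu)
  have hβW : ∀ u ∈ W, β u = 0 := fun u hu => by
    rw [hβdef, LinearMap.smul_apply, LinearMap.mem_ker.1 (hrow.ker hu), smul_zero]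
  set C' := C ⊓ LinearMap.ker β with hC'
  have hcompl : IsCompl (W ⊔ K ∙ c) C' := by
    refine IsCompl.of_eq ?_ ?_
    · rw [Submodule.eq_bot_iff]
      rintro x ⟨hx, hxC, hxβ⟩
      obtain ⟨u, hu, y, hy, rfl⟩ := Submodule.mem_sup.1 hx
      obtain ⟨s, rfl⟩ := Submodule.mem_span_singleton.1 hy
      simp only [SetLike.mem_coe, LinearMap.mem_ker, map_add, map_smul, hβW u hu, hβ, zero_add,
        smul_eq_mul, mul_one] at hxβ
      subst hxβ
      simp only [zero_smul, add_zero] at hxC ⊢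
      exact Submodule.disjoint_def.1 hc.disjoint u hu hxC
    · rw [eq_top_iff]
      intro x _
      obtain ⟨w, hw, c', hc', rfl⟩ := exists_parts hc x
      refine Submodule.mem_sup.2 ⟨w + β c' • c,
        add_mem (Submodule.mem_sup_left hw) (Submodule.mem_sup_right
          (Submodule.smul_mem _ _ (Submodule.mem_span_singleton_self c))),
        c' - β c' • c, ⟨sub_mem hc' (Submodule.smul_mem _ _ hcol.mem_C), ?_⟩, by abel⟩
      simp [hβ]
  have hfix' : fixR R ≤ C' := by
    refine le_inf hfix fun x hx => ?_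
    obtain ⟨u, hu, hu0⟩ : ∃ u, u ∈ W ∧ u ≠ 0 := Submodule.exists_mem_ne_zero_of_ne_bot fun h => by
      rw [h, finrank_bot] at hdim; omega
    exact mem_fixR.1 hx u β (hβR u hu) hu0
  refine ⟨W ⊔ K ∙ c, C', Or.inl ⟨⟨hcompl, hfix', by omega, ?_⟩, by omega⟩⟩
  intro x hx γ hγC hγx
  obtain ⟨u, hu, y, hy, rfl⟩ := Submodule.mem_sup.1 hx
  obtain ⟨s, rfl⟩ := Submodule.mem_span_singleton.1 hy
  -- the part of `γ` on `W`
  set r := γ c with hr
  set γW := γ - r • β with hγW
  have hγWC : C ≤ LinearMap.ker γW := by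
    intro y hy
    have hm : y - β y • c ∈ C' := ⟨sub_mem hy (Submodule.smul_mem _ _ hcol.mem_C), by simp [hβ]⟩
    have h0 := LinearMap.mem_ker.1 (hγC hm)
    rw [map_sub, map_smul, smul_eq_mul, sub_eq_zero] at h0
    rw [LinearMap.mem_ker, hγW, LinearMap.sub_apply, LinearMap.smul_apply, smul_eq_mul, h0, ← hr,
      mul_comm, sub_self]
  have hγ : γ = γW + r • β := (sub_add_cancel γ _).symm
  have hzero : γW u + r * s = 0 := by
    rw [← hγx, hγW, LinearMap.sub_apply, LinearMap.smul_apply, map_add, map_smul, hβW u hu, ← hr,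
      smul_zero, sub_zero, smul_eq_mul, mul_comm s]
  have hinW : γW u = 0 → R u γW := fun h0 =>
    hR.comm_right (hβR u hu) (hcol.mem γW hγWC) h0 (by rw [hβ]; exact one_ne_zero)
  rw [hγ]
  by_cases hs : s = 0
  · subst hs
    rw [zero_smul, add_zero]
    exact hR.addr _ _ _ (hinW (by simpa using hzero)) (hR.smulr r _ _ (hβR u hu))
  by_cases hr0 : r = 0
  · rw [hr0, zero_smul, add_zero]
    exact hR.addl _ _ _ (hinW (by simpa [hr0] using hzero))
      (hR.smull s _ _ (hcol.mem γW hγWC))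
  have h := hR.conj u (r • β) c (-r⁻¹ • γW) (hR.smulr r _ _ (hβR u hu))
    (hR.smulr _ _ _ (hcol.mem γW hγWC))
  have e1 : (-r⁻¹ • γW) u = s := by
    rw [LinearMap.smul_apply, smul_eq_mul, eq_neg_of_add_eq_zero_left hzero]
    field_simp
  have e2 : r • β - (r • β) c • (-r⁻¹ • γW) = γW + r • β := by
    have e3 : (r • β) c = r := by rw [LinearMap.smul_apply, hβ, smul_eq_mul, mul_one]
    rw [e3, smul_smul r (-r⁻¹) γW, mul_neg, mul_inv_cancel₀ hr0, neg_smul, one_smul, sub_neg_eq_add, add_comm]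
  rwa [e1, e2] at h

end Cfsg.Agent.Lib.TransvGen
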