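import Cfsg.Agent.Lib.Forms.Symplectic

/-!
# Generation by transvections, without coordinates
-/

set_option autoImplicit false

namespace Cfsg.Agent.Lib.TransvGen

open Module Matrix

universe u v

variable {K : Type u} [Field K] {W : Type v} [AddCommGroup W] [Module K W] [FiniteDimensional K W]

/-- The matrix of an automorphism. -/
noncomputable def toGLHom {ι : Type} [Fintype ι] [DecidableEq ι] (b : Basis ι K W) :
    (W ≃ₗ[K] W) →* GL ι K where
  toFun f := ⟨LinearMap.toMatrix b b f, LinearMap.toMatrix b b f.symm,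
    by rw [← LinearMap.toMatrix_comp b b b]; simp,
    by rw [← LinearMap.toMatrix_comp b b b]; simp⟩
  map_one' := Units.ext (by simp [LinearMap.toMatrix_id])
  map_mul' f g := Units.ext (LinearMap.toMatrix_comp b b b (f : W →ₗ[K] W) (g : W →ₗ[K] W))

theorem toGLHom_mulVec {ι : Type} [Fintype ι] [DecidableEq ι] (b : Basis ι K W) (f : W ≃ₗ[K] W)
    (x : W) : ((toGLHom b f : GL ι K) : Matrix ι ι K) *ᵥ b.equivFun x = b.equivFun (f x) :=
  LinearMap.toMatrix_mulVec_repr b b (f : W →ₗ[K] W) x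

theorem toGLHom_injective {ι : Type} [Fintype ι] [DecidableEq ι] (b : Basis ι K W) :
    Function.Injective (toGLHom b) := fun f g e => LinearEquiv.ext fun x => b.equivFun.injective (by
  rw [← toGLHom_mulVec, ← toGLHom_mulVec, e])

/-- `SL(W)` is generated by transvections. -/
theorem mem_of_det_eq_one (M : Subgroup (W ≃ₗ[K] W))
    (hM : ∀ (u : W) (γ : Dual K W), γ u = 0 → ∃ f ∈ M, ∀ x, f x = x + γ x • u)
    {f : W ≃ₗ[K] W} (hf : LinearMap.det (f : W →ₗ[K] W) = 1) : f ∈ M := by
  set b := Module.finBasis K W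
  have key : Cfsg.Geo.specialLinear _ K ≤ M.map (toGLHom b) :=
    Forms.specialLinear_le_of_tv _ fun a φ hφ => by
      set γ : Dual K W := (dotProductEquiv K (Fin (finrank K W)) φ) ∘ₗ b.equivFun.toLinearMap with hγ
      have hγa : ∀ x, γ x = φ ⬝ᵥ b.equivFun x := fun x => rfl
      obtain ⟨f₀, hf₀, hf₀x⟩ := hM (b.equivFun.symm a) γ
        (by rw [hγa, LinearEquiv.apply_symm_apply, hφ])
      refine ⟨f₀, hf₀, Forms.gl_ext fun z => ?_⟩
      obtain ⟨x, rfl⟩ := b.equivFun.surjective z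
      rw [toGLHom_mulVec, Forms.tv_mulVec hφ, hf₀x, map_add, map_smul,
        LinearEquiv.apply_symm_apply, hγa]
  obtain ⟨f', hf', e⟩ := key ((Forms.mem_specialLinear (toGLHom b f)).2
    ((LinearMap.det_toMatrix b (f : W →ₗ[K] W)).trans hf))
  exact toGLHom_injective b e ▸ hf'

/-- `Sp(W)` is generated by symplectic transvections. -/
theorem mem_of_isometry (M : Subgroup (W ≃ₗ[K] W)) {B : LinearMap.BilinForm K W} (hA : B.IsAlt)
    (hB : ∀ u, (∀ x, B u x = 0) → u = 0)
    (hM : ∀ (u : W) (c : K), ∃ f ∈ M, ∀ x, f x = x + (c * B x u) • u)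
    {f : W ≃ₗ[K] W} (hf : ∀ x y, B (f x) (f y) = B x y) : f ∈ M := by
  set b := Module.finBasis K W
  set B' : LinearMap.BilinForm K (Fin (finrank K W) → K) :=
    B.compl₁₂ b.equivFun.symm.toLinearMap b.equivFun.symm.toLinearMap with hB'
  have hap : ∀ x y, B' (b.equivFun x) (b.equivFun y) = B x y := fun x y => by
    simp [hB']
  have hA' : B'.IsAlt := fun x => hA _
  have hleft : ∀ u, (∀ y, B' u y = 0) → u = 0 := fun u hu => by
    obtain ⟨x, rfl⟩ := b.equivFun.surjective u
    rw [hB x fun y => (hap x y).symm.trans (hu _), map_zero]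
  have hB'n : B'.Nondegenerate :=
    ⟨hleft, fun u hu => hleft u fun y => by rw [← hA'.neg_eq y u, hu y, neg_zero]⟩
  have key : Forms.isoGroup B' ≤ M.map (toGLHom b) :=
    Forms.isoGroup_le_of_sympT hA' _ hB'n fun w c => by
      obtain ⟨u, rfl⟩ := b.equivFun.surjective w
      obtain ⟨f₀, hf₀, hf₀x⟩ := hM u c
      refine ⟨f₀, hf₀, Forms.gl_ext fun z => ?_⟩
      obtain ⟨x, rfl⟩ := b.equivFun.surjective z
      rw [toGLHom_mulVec, Forms.sympT_mulVec hA', hf₀x, map_add, map_smul, hap]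
  obtain ⟨f', hf', e⟩ := key (show toGLHom b f ∈ Forms.isoGroup B' from Forms.mem_isoGroup.2
    fun u v => by
      obtain ⟨x, rfl⟩ := b.equivFun.surjective u
      obtain ⟨y, rfl⟩ := b.equivFun.surjective v
      rw [toGLHom_mulVec, toGLHom_mulVec, hap, hap, hf])
  exact toGLHom_injective b e ▸ hf'

end Cfsg.Agent.Lib.TransvGen
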