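import Cfsg.Agent.Lib.TransvGen.Group
import Cfsg.Agent.Lib.TransvGen.Gen

/-!
# The subgroup of one block
-/

set_option autoImplicit false

namespace Cfsg.Agent.Lib.TransvGen

open Module

universe v

variable {p : ℕ} [Fact p.Prime] {V : Type v} [AddCommGroup V] [Module (ZMod p) V]
  {H : Subgroup (V ≃ₗ[ZMod p] V)} {W C : Submodule (ZMod p) V}

/-- The automorphisms trivial on `C` and on `V / W`. -/
def blockStab (W C : Submodule (ZMod p) V) : Subgroup (V ≃ₗ[ZMod p] V) where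
  carrier := {g | (∀ x ∈ C, g x = x) ∧ ∀ x, g x - x ∈ W}
  one_mem' := ⟨fun _ _ => rfl, fun x => by simp⟩
  mul_mem' := by
    rintro g h ⟨g1, g2⟩ ⟨h1, h2⟩
    refine ⟨fun x hx => by rw [LinearEquiv.mul_apply, h1 x hx, g1 x hx], fun x => ?_⟩
    rw [LinearEquiv.mul_apply, ← sub_add_sub_cancel (g (h x)) (h x) x]
    exact add_mem (g2 (h x)) (h2 x)
  inv_mem' := by
    rintro g ⟨g1, g2⟩
    refine ⟨fun x hx => ?_, fun x => ?_⟩
    · show g.symm x = x
      rw [LinearEquiv.symm_apply_eq, g1 x hx]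
    · show g.symm x - x ∈ W
      have := g2 (g.symm x)
      rw [g.apply_symm_apply] at this
      simpa using neg_mem this

theorem mem_blockStab {g : V ≃ₗ[ZMod p] V} :
    g ∈ blockStab W C ↔ (∀ x ∈ C, g x = x) ∧ ∀ x, g x - x ∈ W := Iff.rfl

/-- The transvections of `H` belonging to a block. -/
def blockGens (H : Subgroup (V ≃ₗ[ZMod p] V)) (W C : Submodule (ZMod p) V) :
    Set (V ≃ₗ[ZMod p] V) :=
  {g | g ∈ H ∧ ∃ (v : V) (φ : Dual (ZMod p) V), φ v = 0 ∧ v ∈ W ∧ C ≤ LinearMap.ker φ ∧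
    ∀ x, g x = x + φ x • v}

/-- The subgroup generated by the transvections of a block. -/
def blockGroup (H : Subgroup (V ≃ₗ[ZMod p] V)) (W C : Submodule (ZMod p) V) :
    Subgroup (V ≃ₗ[ZMod p] V) := Subgroup.closure (blockGens H W C)

theorem blockGroup_le : blockGroup H W C ≤ H := (Subgroup.closure_le _).2 fun _ hg => hg.1

theorem blockGroup_le_stab : blockGroup H W C ≤ blockStab W C := by
  refine (Subgroup.closure_le _).2 ?_
  rintro g ⟨-, v, φ, -, hvW, hφC, hg⟩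
  refine ⟨fun x hx => ?_, fun x => ?_⟩
  · rw [hg, LinearMap.mem_ker.1 (hφC hx), zero_smul, add_zero]
  · rw [hg, add_sub_cancel_left]; exact W.smul_mem _ hvW

theorem stab_map {g : V ≃ₗ[ZMod p] V} (hg : g ∈ blockStab W C) {U : Submodule (ZMod p) V}
    (hU : W ≤ U ∨ U ≤ C) : U.map (g : V →ₗ[ZMod p] V) = U := by
  have key : ∀ f ∈ blockStab W C, ∀ x ∈ U, f x ∈ U := by
    intro f hf x hx
    obtain h | h := hU
    · rw [← sub_add_cancel (f x) x]; exact add_mem (h (hf.2 x)) hx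
    · rw [hf.1 x (h hx)]; exact hx
  refine le_antisymm ?_ fun x hx => ⟨g⁻¹ x, key _ (inv_mem hg) x hx, ?_⟩
  · rintro _ ⟨x, hx, rfl⟩
    exact key g hg x hx
  · exact g.apply_symm_apply x

theorem stab_comm {W' C' : Submodule (ZMod p) V} (h1 : W ≤ C') (h2 : W' ≤ C)
    {a b : V ≃ₗ[ZMod p] V} (ha : a ∈ blockStab W C) (hb : b ∈ blockStab W' C') :
    a * b = b * a := by
  refine LinearEquiv.ext fun x => ?_
  rw [LinearEquiv.mul_apply, LinearEquiv.mul_apply]
  have e1 : a (b x - x) = b x - x := ha.1 _ (h2 (hb.2 x))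
  have e2 : b (a x - x) = a x - x := hb.1 _ (h1 (ha.2 x))
  rw [map_sub] at e1 e2
  rw [← sub_add_cancel (a (b x)) (a x), ← sub_add_cancel (b (a x)) (b x), e1, e2]
  abel

/-- Restriction to a block. -/
def restrictHom (H : Subgroup (V ≃ₗ[ZMod p] V)) (W C : Submodule (ZMod p) V) :
    ↥(blockGroup H W C) →* (↥W ≃ₗ[ZMod p] ↥W) where
  toFun h :=
    { toFun := fun x => ⟨(h : V ≃ₗ[ZMod p] V) x, by
        rw [← sub_add_cancel ((h : V ≃ₗ[ZMod p] V) x) (x : V)]
        exact add_mem ((blockGroup_le_stab h.2).2 x) x.2⟩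
      map_add' := fun x y => Subtype.ext (map_add (h : V ≃ₗ[ZMod p] V) _ _)
      map_smul' := fun c x => Subtype.ext (map_smul (h : V ≃ₗ[ZMod p] V) c _)
      invFun := fun x => ⟨(h : V ≃ₗ[ZMod p] V).symm x, by
        rw [← sub_add_cancel ((h : V ≃ₗ[ZMod p] V).symm x) (x : V)]
        exact add_mem ((blockGroup_le_stab (inv_mem h.2)).2 x) x.2⟩
      left_inv := fun x => Subtype.ext ((h : V ≃ₗ[ZMod p] V).symm_apply_apply _)
      right_inv := fun x => Subtype.ext ((h : V ≃ₗ[ZMod p] V).apply_symm_apply _) }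
  map_one' := LinearEquiv.ext fun _ => rfl
  map_mul' _ _ := LinearEquiv.ext fun _ => rfl

theorem restrictHom_apply (h : ↥(blockGroup H W C)) (x : ↥W) :
    ((restrictHom H W C h x : ↥W) : V) = (h : V ≃ₗ[ZMod p] V) (x : V) := rfl

theorem exists_restrict {u : V} {γ : Dual (ZMod p) V} (h : Rel H u γ) (hu : u ∈ W)
    (hγ : C ≤ LinearMap.ker γ) :
    ∃ f ∈ (restrictHom H W C).range, ∀ x : ↥W, ((f x : ↥W) : V) = x + γ x • u := by
  obtain ⟨hv, g, hg, hgx⟩ := h
  exact ⟨_, ⟨⟨g, Subgroup.subset_closure ⟨hg, u, γ, hv, hu, hγ, hgx⟩⟩, rfl⟩, fun x => hgx x⟩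

theorem det_restrictHom (h : ↥(blockGroup H W C)) :
    LinearMap.det (restrictHom H W C h : ↥W →ₗ[ZMod p] ↥W) = 1 := by
  obtain ⟨g, hg⟩ := h
  induction hg using Subgroup.closure_induction with
  | mem g hg =>
    obtain ⟨-, v, φ, hv, -, -, hgx⟩ := id hg
    set k : ↥(blockGroup H W C) := ⟨g, Subgroup.subset_closure hg⟩
    have hk : k ^ p = 1 := Subtype.ext (by rw [SubmonoidClass.coe_pow]; exact transv_pow_char hv hgx)
    have := congrArg (fun k => LinearEquiv.det (restrictHom H W C k)) hk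
    simp only [map_pow, map_one] at this
    have h2 := congrArg Units.val this
    rwa [Units.val_pow_eq_pow_val, ZMod.pow_card, Units.val_one, LinearEquiv.coe_det] at h2
  | one =>
    rw [show (⟨1, _⟩ : ↥(blockGroup H W C)) = 1 from rfl, map_one]
    exact LinearMap.det_id
  | mul a b ha hb iha ihb =>
    have e : restrictHom H W C ⟨a * b, mul_mem ha hb⟩ =
        restrictHom H W C ⟨a, ha⟩ * restrictHom H W C ⟨b, hb⟩ :=
      map_mul (restrictHom H W C) ⟨a, ha⟩ ⟨b, hb⟩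
    rw [e]
    exact (LinearMap.det_comp _ _).trans (by rw [iha, ihb, one_mul])
  | inv a ha iha =>
    have e : restrictHom H W C ⟨a⁻¹, inv_mem ha⟩ = (restrictHom H W C ⟨a, ha⟩)⁻¹ :=
      map_inv (restrictHom H W C) ⟨a, ha⟩
    rw [e, ← LinearEquiv.coe_det, map_inv, Units.val_inv_eq_inv_val, LinearEquiv.coe_det, iha,
      inv_one]

variable [Finite V]

theorem sl_range (hG : GoodSL (Rel H) W C) :
    ((restrictHom H W C).range : Set (↥W ≃ₗ[ZMod p] ↥W)) =
      {f : ↥W ≃ₗ[ZMod p] ↥W | LinearMap.det (f : ↥W →ₗ[ZMod p] ↥W) = 1} := by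
  ext f
  refine ⟨fun ⟨h, e⟩ => e ▸ det_restrictHom h, fun hf => ?_⟩
  refine mem_of_det_eq_one _ (fun u γ hγ => ?_) hf
  set γ' : Dual (ZMod p) V := γ ∘ₗ W.projectionOnto C hG.hc with hγ'
  have hγ'W : ∀ x : ↥W, γ' x = γ x := fun x => by
    rw [hγ', LinearMap.comp_apply, Submodule.projectionOnto_apply_left]
  have hγ'C : C ≤ LinearMap.ker γ' := fun c hc => by
    rw [LinearMap.mem_ker, hγ', LinearMap.comp_apply,
      (Submodule.projectionOnto_apply_eq_zero_iff hG.hc).2 hc, map_zero]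
  obtain ⟨f₀, hf₀, hx⟩ := exists_restrict (hG.mem u u.2 γ' hγ'C (by rw [hγ'W, hγ])) u.2 hγ'C
  exact ⟨f₀, hf₀, fun x => Subtype.ext (by rw [hx, hγ'W]; rfl)⟩

theorem sp_range {B : LinearMap.BilinForm (ZMod p) V} (hR : Sys (Rel H)) (hG : GoodSp (Rel H) W C B)
    (hin : ∀ v φ, Rel H v φ → v ∈ W → v ≠ 0 → C ≤ LinearMap.ker φ → ∃ k : ZMod p, φ = k • B v) :
    ∃ B' : LinearMap.BilinForm (ZMod p) ↥W, B'.IsAlt ∧ B'.Nondegenerate ∧
      ((restrictHom H W C).range : Set (↥W ≃ₗ[ZMod p] ↥W)) =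
        {f : ↥W ≃ₗ[ZMod p] ↥W | ∀ x y, B' (f x) (f y) = B' x y} := by
  set B' : LinearMap.BilinForm (ZMod p) ↥W := B.compl₁₂ W.subtype W.subtype with hB'
  have hap : ∀ x y : ↥W, B' x y = B x y := fun _ _ => rfl
  have hA : B'.IsAlt := fun x => hG.alt x
  have hleft : ∀ u, (∀ y, B' u y = 0) → u = 0 := fun u hu =>
    Subtype.ext (hG.nd u u.2 fun y hy => hu ⟨y, hy⟩)
  refine ⟨B', hA, ⟨hleft, fun u hu => hleft u fun y => by rw [← hA.neg_eq y u, hu y, neg_zero]⟩, ?_⟩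
  have hpres : ∀ g ∈ blockGroup H W C, ∀ x ∈ W, ∀ y ∈ W, B (g x) (g y) = B x y := by
    intro g hg
    induction hg using Subgroup.closure_induction with
    | mem g hg =>
      obtain ⟨hgH, v, φ, hv, hvW, hφC, hgx⟩ := hg
      intro x _ y _
      by_cases hv0 : v = 0
      · rw [hgx, hgx, hv0, smul_zero, smul_zero, add_zero, add_zero]
      obtain ⟨k, rfl⟩ := hin v φ ⟨hv, g, hgH, hgx⟩ hvW hv0 hφC
      simp only [hgx, map_add, map_smul, LinearMap.add_apply, LinearMap.smul_apply, smul_eq_mul,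
        hG.alt v, hG.skew x v]
      ring
    | one => intro x _ y _; rfl
    | mul a b _ hb iha ihb =>
      intro x hx y hy
      have hmem : ∀ z ∈ W, b z ∈ W := fun z hz => by
        rw [← sub_add_cancel (b z) z]; exact add_mem ((blockGroup_le_stab hb).2 z) hz
      rw [LinearEquiv.mul_apply, LinearEquiv.mul_apply, iha _ (hmem x hx) _ (hmem y hy), ihb x hx y hy]
    | inv a ha iha =>
      intro x hx y hy
      have hmem : ∀ z ∈ W, a⁻¹ z ∈ W := fun z hz => by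
        rw [← sub_add_cancel (a⁻¹ z) z]
        exact add_mem ((blockGroup_le_stab (inv_mem ha)).2 z) hz
      rw [← iha _ (hmem x hx) _ (hmem y hy)]
      show B (a (a.symm x)) (a (a.symm y)) = _
      rw [a.apply_symm_apply, a.apply_symm_apply]
  ext f
  refine ⟨fun ⟨h, e⟩ => e ▸ fun x y => hpres _ h.2 x x.2 y y.2, fun hf => ?_⟩
  refine mem_of_isometry _ hA hleft (fun u c => ?_) hf
  have h := hR.smulr (-c) _ _ (hG.mem u u.2)
  obtain ⟨f₀, hf₀, hx⟩ := exists_restrict h u.2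
    (fun z hz => by simp [hG.right (u : V) hz])
  refine ⟨f₀, hf₀, fun x => Subtype.ext ?_⟩
  rw [hx, Submodule.coe_add, Submodule.coe_smul, LinearMap.smul_apply, smul_eq_mul, hap,
    hG.skew (x : V) u, neg_mul, mul_neg]

end Cfsg.Agent.Lib.TransvGen
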