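import Cfsg.Agent.Lib.TransvGen.Main
import Cfsg.Agent.Lib.Involution.BaerSuzuki
import Cfsg.Prelude

/-!
# The transvections of a linear group over `ZMod p` without normal `p`-subgroups form a system
-/

set_option autoImplicit false

namespace Cfsg.Agent.Lib.TransvGen

open Module

universe v

variable {p : ℕ} [Fact p.Prime] {V : Type v} [AddCommGroup V] [Module (ZMod p) V]

/-- The transvection with centre `v` and functional `φ` lies in `H`. -/
def Rel (H : Subgroup (V ≃ₗ[ZMod p] V)) (v : V) (φ : Dual (ZMod p) V) : Prop :=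
  φ v = 0 ∧ ∃ g ∈ H, ∀ x, g x = x + φ x • v

theorem nsmul_char (y : V) : p • y = 0 := by
  rw [← Nat.cast_smul_eq_nsmul (ZMod p), ZMod.natCast_self, zero_smul]

theorem inv_transv {g : V ≃ₗ[ZMod p] V} {v : V} {φ : Dual (ZMod p) V} (hv : φ v = 0)
    (hg : ∀ x, g x = x + φ x • v) (x : V) : g⁻¹ x = x - φ x • v := by
  refine g.injective ?_
  show g (g.symm x) = _
  rw [g.apply_symm_apply, hg, map_sub, map_smul, hv, smul_zero, sub_zero, sub_add_cancel]

theorem pow_transv {g : V ≃ₗ[ZMod p] V} {v : V} {φ : Dual (ZMod p) V} (hv : φ v = 0)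
    (hg : ∀ x, g x = x + φ x • v) (n : ℕ) (x : V) : (g ^ n) x = x + n • φ x • v := by
  induction n with
  | zero => simp
  | succ n ih =>
    rw [pow_succ', LinearEquiv.mul_apply, ih, hg, map_add, map_nsmul, map_smul, hv, smul_zero,
      smul_zero, add_zero, succ_nsmul, add_assoc]

theorem transv_pow_char {g : V ≃ₗ[ZMod p] V} {v : V} {φ : Dual (ZMod p) V} (hv : φ v = 0)
    (hg : ∀ x, g x = x + φ x • v) : g ^ p = 1 :=
  LinearEquiv.ext fun x => by rw [pow_transv hv hg, nsmul_char, add_zero]; rfl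

/-- Stabilising the chain `0 ≤ ⟨a⟩ ≤ ⟨a, b⟩ ≤ V`. -/
def Chain (a b : V) (g : V ≃ₗ[ZMod p] V) : Prop :=
  g a = a ∧ g b - b ∈ (ZMod p) ∙ a ∧ ∀ x, g x - x ∈ (ZMod p) ∙ a ⊔ (ZMod p) ∙ b

theorem chain_transv {a b v : V} {g : V ≃ₗ[ZMod p] V} {φ : Dual (ZMod p) V}
    (hg : ∀ x, g x = x + φ x • v) (ha : φ a = 0)
    (hv : v ∈ (ZMod p) ∙ a ⊔ (ZMod p) ∙ b) (hb : φ b • v ∈ (ZMod p) ∙ a) : Chain a b g := by
  refine ⟨by rw [hg, ha, zero_smul, add_zero], ?_, fun x => ?_⟩
  · rw [hg, add_sub_cancel_left]; exact hb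
  · rw [hg, add_sub_cancel_left]; exact Submodule.smul_mem _ _ hv

theorem chain_mul {a b : V} {g h : V ≃ₗ[ZMod p] V} (hg : Chain a b g) (hh : Chain a b h) :
    Chain a b (g * h) := by
  have hga : ∀ z ∈ (ZMod p) ∙ a, g z = z := fun z hz => by
    obtain ⟨k, rfl⟩ := Submodule.mem_span_singleton.1 hz
    rw [map_smul, hg.1]
  have hsp : ∀ z ∈ (ZMod p) ∙ a ⊔ (ZMod p) ∙ b, g z ∈ (ZMod p) ∙ a ⊔ (ZMod p) ∙ b := fun z hz => by
    rw [← sub_add_cancel (g z) z]; exact add_mem (hg.2.2 z) hz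
  refine ⟨by rw [LinearEquiv.mul_apply, hh.1, hg.1], ?_, fun x => ?_⟩
  · have e : (g * h) b - b = g (h b - b) + (g b - b) := by rw [LinearEquiv.mul_apply, map_sub]; abel
    rw [e, hga _ hh.2.1]
    exact add_mem hh.2.1 hg.2.1
  · have e : (g * h) x - x = g (h x - x) + (g x - x) := by rw [LinearEquiv.mul_apply, map_sub]; abel
    rw [e]
    exact add_mem (hsp _ (hh.2.2 x)) (hg.2.2 x)

theorem chain_pow (hp : Odd p) {a b : V} {g : V ≃ₗ[ZMod p] V} (hg : Chain a b g) : g ^ p = 1 := by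
  have hp2 : 2 < p := lt_of_le_of_ne (Fact.out : p.Prime).two_le fun e => by
    rw [← e] at hp; exact absurd hp (by decide)
  set N : V →ₗ[ZMod p] V := (g : V →ₗ[ZMod p] V) - LinearMap.id with hN
  have hNx : ∀ x, N x = g x - x := fun x => rfl
  have hgx : ∀ x, g x = x + N x := fun x => by rw [hNx, add_sub_cancel]
  have h3 : ∀ x, N (N (N x)) = 0 := by
    intro x
    have h1 : ∀ z ∈ (ZMod p) ∙ a ⊔ (ZMod p) ∙ b, N z ∈ (ZMod p) ∙ a := by
      intro z hz
      obtain ⟨_, h1, _, h2, rfl⟩ := Submodule.mem_sup.1 hz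
      obtain ⟨k, rfl⟩ := Submodule.mem_span_singleton.1 h1
      obtain ⟨l, rfl⟩ := Submodule.mem_span_singleton.1 h2
      rw [map_add, map_smul, map_smul, hNx a, hg.1, sub_self, smul_zero, zero_add, hNx b]
      exact Submodule.smul_mem _ _ hg.2.1
    obtain ⟨k, hk⟩ := Submodule.mem_span_singleton.1 (h1 (N x) (by rw [hNx]; exact hg.2.2 x))
    rw [← hk, map_smul, hNx a, hg.1, sub_self, smul_zero]
  have hn : ∀ (n : ℕ) x, (g ^ n) x = x + n • N x + n.choose 2 • N (N x) := by
    intro n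
    induction n with
    | zero => intro x; simp
    | succ n ih =>
      intro x
      rw [pow_succ', LinearEquiv.mul_apply, ih, hgx]
      rw [Nat.choose_succ_succ', Nat.choose_one_right]
      simp only [map_add, map_nsmul, h3, smul_zero, add_zero, add_nsmul, one_nsmul]
      abel
  obtain ⟨k, hk⟩ := (Fact.out : p.Prime).dvd_choose_self two_ne_zero hp2
  refine LinearEquiv.ext fun x => ?_
  rw [hn, nsmul_char, hk, mul_nsmul, nsmul_char (p := p), smul_zero, add_zero, add_zero]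
  rfl

/-- Two transvections that are not opposite generate a `p`-group. -/
theorem isPGroup_pair (hp : Odd p) {H : Subgroup (V ≃ₗ[ZMod p] V)} {g g' : ↥H} {v u : V}
    {φ γ : Dual (ZMod p) V} (hv : φ v = 0) (hg : ∀ x, (g : V ≃ₗ[ZMod p] V) x = x + φ x • v)
    (hu : γ u = 0) (hg' : ∀ x, (g' : V ≃ₗ[ZMod p] V) x = x + γ x • u)
    (hno : φ u = 0 ∨ γ v = 0) :
    IsPGroup p ↥(Subgroup.zpowers g ⊔ Subgroup.zpowers g') := by
  obtain ⟨a, b, h1, h1', h2, h2'⟩ : ∃ a b : V,
      Chain a b (g : V ≃ₗ[ZMod p] V) ∧ Chain a b (g : V ≃ₗ[ZMod p] V)⁻¹ ∧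
      Chain a b (g' : V ≃ₗ[ZMod p] V) ∧ Chain a b (g' : V ≃ₗ[ZMod p] V)⁻¹ := by
    have hi : ∀ x, (g : V ≃ₗ[ZMod p] V)⁻¹ x = x + (-φ) x • v := fun x => by
      rw [inv_transv hv hg, LinearMap.neg_apply, neg_smul, sub_eq_add_neg]
    have hi' : ∀ x, (g' : V ≃ₗ[ZMod p] V)⁻¹ x = x + (-γ) x • u := fun x => by
      rw [inv_transv hu hg', LinearMap.neg_apply, neg_smul, sub_eq_add_neg]
    obtain h | h := hno
    · exact ⟨u, v,
        chain_transv hg h (Submodule.mem_sup_right (Submodule.mem_span_singleton_self v))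
          (by simp [hv]),
        chain_transv hi (by simp [h]) (Submodule.mem_sup_right (Submodule.mem_span_singleton_self v))
          (by simp [hv]),
        chain_transv hg' hu (Submodule.mem_sup_left (Submodule.mem_span_singleton_self u))
          (Submodule.smul_mem _ _ (Submodule.mem_span_singleton_self u)),
        chain_transv hi' (by simp [hu]) (Submodule.mem_sup_left (Submodule.mem_span_singleton_self u))
          (Submodule.smul_mem _ _ (Submodule.mem_span_singleton_self u))⟩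
    · exact ⟨v, u,
        chain_transv hg hv (Submodule.mem_sup_left (Submodule.mem_span_singleton_self v))
          (Submodule.smul_mem _ _ (Submodule.mem_span_singleton_self v)),
        chain_transv hi (by simp [hv]) (Submodule.mem_sup_left (Submodule.mem_span_singleton_self v))
          (Submodule.smul_mem _ _ (Submodule.mem_span_singleton_self v)),
        chain_transv hg' h (Submodule.mem_sup_right (Submodule.mem_span_singleton_self u))
          (by simp [hu]),
        chain_transv hi' (by simp [h]) (Submodule.mem_sup_right (Submodule.mem_span_singleton_self u))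
          (by simp [hu])⟩
  have e : Subgroup.zpowers g ⊔ Subgroup.zpowers g' = Subgroup.closure {g, g'} := by
    rw [Subgroup.zpowers_eq_closure, Subgroup.zpowers_eq_closure, ← Subgroup.closure_union,
      Set.singleton_union]
  rw [e]
  rintro ⟨x, hx⟩
  have hch : Chain a b (x : V ≃ₗ[ZMod p] V) := by
    induction hx using Subgroup.closure_induction'' with
    | mem y hy => obtain rfl | rfl := hy <;> assumption
    | inv_mem y hy =>
      obtain rfl | rfl := hy
      · rw [Subgroup.coe_inv]; exact h1'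
      · rw [Subgroup.coe_inv]; exact h2'
    | one => exact ⟨rfl, by simp, fun z => by simp⟩
    | mul y z _ _ hy hz => rw [Subgroup.coe_mul]; exact chain_mul hy hz
  exact ⟨1, Subtype.ext (Subtype.ext (by
    rw [pow_one, SubmonoidClass.coe_pow, SubmonoidClass.coe_pow, chain_pow hp hch]; rfl))⟩

variable [Finite V]

theorem rel_sys (hp : Odd p) (H : Subgroup (V ≃ₗ[ZMod p] V)) (hOp : Cfsg.pCore p ↥H = ⊥) :
    Sys (Rel H) := by
  have hzl : ∀ φ, Rel H 0 φ := fun φ => ⟨map_zero φ, 1, one_mem H, fun x => by simp⟩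
  have hzr : ∀ v, Rel H v 0 := fun v => ⟨rfl, 1, one_mem H, fun x => by simp⟩
  have haddl : ∀ v w φ, Rel H v φ → Rel H w φ → Rel H (v + w) φ := by
    rintro v w φ ⟨hv, g, hg, hgx⟩ ⟨hw, h, hh, hhx⟩
    refine ⟨by rw [map_add, hv, hw, add_zero], g * h, mul_mem hg hh, fun x => ?_⟩
    rw [LinearEquiv.mul_apply, hhx, hgx, map_add, map_smul, hw, smul_zero, add_zero, smul_add]
    abel
  have haddr : ∀ v φ ψ, Rel H v φ → Rel H v ψ → Rel H v (φ + ψ) := by
    rintro v φ ψ ⟨hv, g, hg, hgx⟩ ⟨hw, h, hh, hhx⟩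
    refine ⟨by rw [LinearMap.add_apply, hv, hw, add_zero], g * h, mul_mem hg hh, fun x => ?_⟩
    rw [LinearEquiv.mul_apply, hhx, hgx, map_add, map_smul, hv, smul_zero, add_zero,
      LinearMap.add_apply, add_smul]
    abel
  have hsmull : ∀ (a : ZMod p) v φ, Rel H v φ → Rel H (a • v) φ := by
    intro a v φ h
    rw [← ZMod.natCast_zmod_val a, Nat.cast_smul_eq_nsmul]
    generalize a.val = n
    induction n with
    | zero => rw [zero_nsmul]; exact hzl φ
    | succ n ih => rw [succ_nsmul]; exact haddl _ _ _ ih h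
  have hsmulr : ∀ (a : ZMod p) v φ, Rel H v φ → Rel H v (a • φ) := by
    intro a v φ h
    obtain ⟨hv, g, hg, hgx⟩ := hsmull a v φ h
    exact ⟨by rw [LinearMap.smul_apply, h.1, smul_zero], g, hg, fun x => by
      rw [hgx, LinearMap.smul_apply, smul_eq_mul, mul_smul, smul_comm]⟩
  have h2 : (2 : ZMod p) ≠ 0 := by
    intro h
    have h' : ((2 : ℕ) : ZMod p) = 0 := by exact_mod_cast h
    rw [ZMod.natCast_eq_zero_iff] at h'
    have := (Nat.prime_dvd_prime_iff_eq (Fact.out : p.Prime) Nat.prime_two).1 h'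
    subst this
    exact absurd hp (by decide)
  refine ⟨h2, fun v φ h => h.1, hzl, hzr, haddl, haddr, hsmull, hsmulr, ?_, ?_, ?_⟩
  · rintro v φ u γ ⟨hv, g, hg, hgx⟩ ⟨hu, h, hh, hhx⟩
    refine ⟨?_, h * g * h⁻¹, mul_mem (mul_mem hh hg) (inv_mem hh), fun x => ?_⟩
    · simp only [LinearMap.sub_apply, LinearMap.smul_apply, map_add, map_smul, hv, hu, smul_eq_mul]
      ring
    obtain ⟨y, rfl⟩ := h.surjective x
    rw [LinearEquiv.mul_apply, LinearEquiv.mul_apply,
      show h⁻¹ (h y) = y from h.symm_apply_apply y, hgx, map_add, map_smul, hhx v]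
    have e : (φ - φ u • γ) (h y) = φ y := by
      simp only [hhx, LinearMap.sub_apply, LinearMap.smul_apply, map_add, map_smul, hu, smul_eq_mul]
      ring
    rw [e]
  · intro y δ c β h1 h3 h5 _ _ _ _ _ _ hδc hβy
    obtain ⟨e1, g1, hg1, hg1x⟩ := h1
    obtain ⟨e2, g2, hg2, hg2x⟩ := h3
    obtain ⟨hδy, g3, hg3, hg3x⟩ := hsmulr (-2) _ _ h5
    have hy0 := h5.1
    have hβc : β c = 0 := by
      rw [LinearMap.add_apply, map_add, map_add, hy0, hδc, hβy] at e1
      simpa using e1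
    have hmem : Rel H c ((2 : ZMod p) • β) := by
      refine ⟨by rw [LinearMap.smul_apply, hβc, smul_zero], g3 * (g2 * g1),
        mul_mem hg3 (mul_mem hg2 hg1), fun x => ?_⟩
      rw [LinearEquiv.mul_apply, LinearEquiv.mul_apply, hg1x, hg2x, hg3x]
      simp only [LinearMap.add_apply, LinearMap.sub_apply, LinearMap.smul_apply, map_add, map_sub,
        map_smul, hy0, hδc, hβy, hβc, smul_eq_mul]
      module
    have := hsmulr (2 : ZMod p)⁻¹ _ _ hmem
    rwa [smul_smul, inv_mul_cancel₀ h2, one_smul] at this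
  · intro v φ ⟨hv, g, hg, hgx⟩ hv0 hφ0
    by_contra hcon
    push Not at hcon
    have : Finite (V ≃ₗ[ZMod p] V) :=
      Finite.of_injective (fun g : V ≃ₗ[ZMod p] V => (g : V → V)) DFunLike.coe_injective
    obtain ⟨N, hNn, hNp, hle⟩ := Involution.baerSuzuki (p := p)
      (Subgroup.zpowers (⟨g, hg⟩ : ↥H)) fun k => by
        rw [MonoidHom.map_zpowers]
        have hu : (φ ∘ₗ ((k : V ≃ₗ[ZMod p] V).symm : V →ₗ[ZMod p] V)) ((k : V ≃ₗ[ZMod p] V) v) = 0 := by
          simp [hv]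
        have hx : ∀ x, ((MulAut.conj k).toMonoidHom (⟨g, hg⟩ : ↥H) : V ≃ₗ[ZMod p] V) x =
            x + (φ ∘ₗ ((k : V ≃ₗ[ZMod p] V).symm : V →ₗ[ZMod p] V)) x •
              (k : V ≃ₗ[ZMod p] V) v := fun x => by
          show (k : V ≃ₗ[ZMod p] V) (g ((k : V ≃ₗ[ZMod p] V).symm x)) = _
          rw [hgx, map_add, map_smul, LinearEquiv.apply_symm_apply]
          rfl
        refine isPGroup_pair hp hv hgx hu hx ?_
        by_cases hφu : φ ((k : V ≃ₗ[ZMod p] V) v) = 0
        · exact Or.inl hφu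
        · exact Or.inr (hcon _ _ ⟨hu, _, SetLike.coe_mem _, hx⟩ hφu)
    have hbot : Subgroup.zpowers (⟨g, hg⟩ : ↥H) ≤ ⊥ :=
      hle.trans (hOp ▸ le_sSup ⟨hNn, hNp⟩)
    have hg1 : g = 1 :=
      congrArg Subtype.val (Subgroup.mem_bot.1 (hbot (Subgroup.mem_zpowers _)))
    apply hφ0
    refine LinearMap.ext fun x => ?_
    have := hgx x
    rw [hg1, LinearEquiv.coe_one, id] at this
    exact (smul_eq_zero.1 (left_eq_add.1 this)).resolve_right hv0

/-- An element of order `p` fixing a hyperplane is a transvection. -/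
theorem exists_transv {t : V ≃ₗ[ZMod p] V} (ho : orderOf t = p)
    (hd : finrank (ZMod p) ↥(LinearMap.ker ((t : V →ₗ[ZMod p] V) - LinearMap.id)) + 1 =
      finrank (ZMod p) V) :
    ∃ (v : V) (φ : Dual (ZMod p) V), v ≠ 0 ∧ φ ≠ 0 ∧ φ v = 0 ∧ ∀ x, t x = x + φ x • v := by
  set N : V →ₗ[ZMod p] V := (t : V →ₗ[ZMod p] V) - LinearMap.id with hN
  have h1 : finrank (ZMod p) ↥(LinearMap.range N) = 1 := by
    have := N.finrank_range_add_finrank_ker
    omega
  obtain ⟨⟨v, hv⟩, hv0, hall⟩ := finrank_eq_one_iff'.1 h1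
  have hv0' : v ≠ 0 := fun e => hv0 (Subtype.ext e)
  obtain ⟨ψ, hψ, -⟩ := Submodule.exists_le_ker_of_notMem (p := (⊥ : Submodule (ZMod p) V)) (v := v)
    (by simpa using hv0')
  set φ : Dual (ZMod p) V := (ψ v)⁻¹ • (ψ ∘ₗ N) with hφdef
  have hx : ∀ x, t x = x + φ x • v := by
    intro x
    obtain ⟨c, hc⟩ := hall ⟨N x, LinearMap.mem_range_self N x⟩
    have hc' : c • v = N x := congrArg Subtype.val hc
    have e : φ x = c := by
      rw [hφdef, LinearMap.smul_apply, LinearMap.comp_apply, ← hc', map_smul, smul_eq_mul,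
        smul_eq_mul, mul_left_comm, inv_mul_cancel₀ hψ, mul_one]
    rw [e, hc', hN, LinearMap.sub_apply, LinearMap.id_apply, LinearEquiv.coe_coe, add_sub_cancel]
  have hpow : ∀ n : ℕ, (t ^ n) v = (1 + φ v) ^ n • v := by
    intro n
    induction n with
    | zero => simp
    | succ n ih => rw [pow_succ', LinearEquiv.mul_apply, ih, map_smul, hx, pow_succ, mul_smul,
        add_smul, one_smul]
  refine ⟨v, φ, hv0', fun e => ?_, ?_, hx⟩
  · have : t = 1 := LinearEquiv.ext fun x => by rw [hx, e]; simp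
    rw [this, orderOf_one] at ho
    exact (Fact.out : p.Prime).one_lt.ne ho
  · have h := hpow p
    rw [orderOf_eq_iff (Fact.out : p.Prime).pos] at ho
    rw [ho.1, ZMod.pow_card, LinearEquiv.coe_one, id, add_smul, one_smul] at h
    exact (smul_eq_zero.1 (left_eq_add.1 h)).resolve_right hv0'

end Cfsg.Agent.Lib.TransvGen
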