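import Cfsg.Agent.Lib.TransvGen.SpExtend

/-!
# Symplectic blocks are closed unless they can be enlarged
-/

set_option autoImplicit false
set_option linter.unusedSectionVars false

namespace Cfsg.Agent.Lib.TransvGen

open Module

universe u v

variable {K : Type u} [Field K] {V : Type v} [AddCommGroup V] [Module K V] [FiniteDimensional K V]
  {R : V → Dual K V → Prop} {W C : Submodule K V} {B : LinearMap.BilinForm K V}

theorem Bigger.mono {m n : ℕ} (h : Bigger R n) (hmn : m ≤ n) : Bigger R m := by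
  obtain ⟨W, C, ⟨hG, hn⟩ | ⟨B, hG, hW, hn⟩⟩ := h
  · exact ⟨W, C, Or.inl ⟨hG, hmn.trans_lt hn⟩⟩
  · exact ⟨W, C, Or.inr ⟨B, hG, hW, hmn.trans_lt hn⟩⟩

/-- A transvection linking a symplectic block to its complement. -/
structure Linked (R : V → Dual K V → Prop) (W C : Submodule K V) (B : LinearMap.BilinForm K V)
    (w c : V) (β : Dual K V) : Prop where
  hw : w ∈ W
  hw0 : w ≠ 0
  hc : c ∈ C
  hc0 : c ≠ 0
  hβ : W ≤ LinearMap.ker β
  hβ0 : β ≠ 0
  hβc : β c = 0
  mem : R (w + c) (B w + β)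

namespace GoodSp

variable (hG : GoodSp R W C B)
include hG

theorem linked_move (hR : Sys R) {w c : V} {β : Dual K V} (h : Linked R W C B w c β) {u : V}
    (hu : u ∈ W) (huw : B u w ≠ 0) : R (u + c) (B u + β) := by
  set z := u - w with hz
  have hzW : z ∈ W := sub_mem hu h.hw
  have hzw : B z w = B u w := by simp [hz, hG.alt w]
  have h1 := hR.conj (w + c) (B w + β) z ((B u w)⁻¹ • B z) h.mem (hR.smulr _ _ _ (hG.mem z hzW))
  have e1 : ((B u w)⁻¹ • B z) (w + c) = 1 := by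
    rw [LinearMap.smul_apply, map_add, hG.right z h.hc, add_zero, hzw, smul_eq_mul,
      inv_mul_cancel₀ huw]
  have e2 : (B w + β) z = -B u w := by
    rw [LinearMap.add_apply, LinearMap.mem_ker.1 (h.hβ hzW), add_zero, hG.skew w z, hzw]
  rw [e1, e2, one_smul, smul_smul, neg_mul, mul_inv_cancel₀ huw, neg_smul, one_smul,
    sub_neg_eq_add] at h1
  have e3 : w + c + z = u + c := by rw [hz]; abel
  have e4 : B w + β + B z = B u + β := by rw [hz, map_sub]; abel
  rwa [e3, e4] at h1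

theorem linked_all (hR : Sys R) {w c : V} {β : Dual K V} (h : Linked R W C B w c β) {u : V}
    (hu : u ∈ W) (hu0 : u ≠ 0) : R (u + c) (B u + β) := by
  obtain ⟨m, hm, hwm, hum⟩ := exists_avoid (hG.exists_ne h.hw h.hw0) (hG.exists_ne hu hu0)
  have hm' := hG.linked_move hR h hm (by rw [hG.skew]; exact neg_ne_zero.2 hwm)
  exact hG.linked_move hR
    { h with
      hw := hm
      hw0 := fun e => hwm (by rw [e, map_zero])
      mem := hm' } hu hum

/-- The part in the complement is itself present. -/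
theorem linked_central (hR : Sys R) {w c : V} {β : Dual K V} (h : Linked R W C B w c β) :
    R c β := by
  have hneg := hG.linked_all hR h (neg_mem h.hw) (neg_ne_zero.2 h.hw0)
  have h1 := hR.smulr (-1) _ _ (hR.smull (-1) _ _ hneg)
  have e1 : (-1 : K) • (-w + c) = w - c := by module
  have e2 : (-1 : K) • (B (-w) + β) = B w - β := by rw [map_neg]; module
  rw [e1, e2] at h1
  obtain ⟨x, hx, hwx⟩ := hG.exists_ne h.hw h.hw0
  have hβx := LinearMap.mem_ker.1 (h.hβ hx)
  exact hR.par w (B w) c β h.mem h1 (hG.mem w h.hw)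
    (fun e => h.hw0 (eq_zero_of_parts hG.hc h.hw h.hc e).1)
    (fun e => h.hw0 (eq_zero_of_parts hG.hc h.hw (neg_mem h.hc) (by rwa [← sub_eq_add_neg])).1)
    h.hw0
    (fun e => hwx (by simpa [hβx] using LinearMap.congr_fun e x))
    (fun e => hwx (by simpa [hβx] using LinearMap.congr_fun e x))
    (hG.form_ne_zero h.hw h.hw0) (hG.right w h.hc) (LinearMap.mem_ker.1 (h.hβ h.hw))

theorem col_of_mixed (hR : Sys R) (hne : W ≠ ⊥) {w c b : V} (hw : w ∈ W) (hc : c ∈ C)
    (hc0 : c ≠ 0) (hb : b ∈ W) (hb0 : b ≠ 0) (h : R (w + c) (B b)) : Col R W C c := by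
  have hbw : B b w = 0 := by
    have := hR.van _ _ h
    rwa [map_add, hG.right b hc, add_zero] at this
  by_cases hw0 : w = 0
  · subst hw0
    rw [zero_add] at h
    exact (hG.rich hR hne).col_of c hc _ hc0 (hG.form_ne_zero hb hb0) (hG.ker_le b) h
  have hww : R (w + c) (B w) := by
    by_cases hbs : b ∈ K ∙ w
    · obtain ⟨k, rfl⟩ := Submodule.mem_span_singleton.1 hbs
      have hk : k ≠ 0 := fun e => hb0 (by rw [e, zero_smul])
      have := hR.smulr k⁻¹ _ _ h
      rwa [map_smul, smul_smul, inv_mul_cancel₀ hk, one_smul] at this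
    · obtain ⟨x₀, hx₀, hwx₀, hbx₀⟩ := hG.exists_orth_not_orth hw hw0 hb hbs
      refine le_of_forall_notMem (W := W ⊓ LinearMap.ker (B w))
        (S := (hR.rightSet (w + c)).comap B) (H := LinearMap.ker (B b)) (x₀ := x₀)
        ⟨hx₀, by simpa using hwx₀⟩ (by simpa using hbx₀)
        (fun x hx hxn => hR.comm_right h (hG.mem x hx.1) ?_ (by simpa using hxn))
        ⟨hw, by simp [hG.alt w]⟩
      rw [map_add, hG.right x hc, add_zero, hG.skew, LinearMap.mem_ker.1 hx.2, neg_zero]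
  have hcw := (hR.leftSet (B w)).sub_mem (hR.mem_leftSet.2 hww)
    (hR.mem_leftSet.2 (hG.mem w hw))
  rw [add_sub_cancel_left] at hcw
  exact (hG.rich hR hne).col_of c hc _ hc0 (hG.form_ne_zero hw hw0) (hG.ker_le w) hcw

theorem row_of_mixed (hR : Sys R) (hne : W ≠ ⊥) {u a : V} {β : Dual K V} (hu : u ∈ W)
    (hu0 : u ≠ 0) (ha : a ∈ W) (hβ : W ≤ LinearMap.ker β) (hβ0 : β ≠ 0)
    (h : R u (B a + β)) : Row R W β := by
  have hau : B a u = 0 := by
    have := hR.van _ _ h
    rwa [LinearMap.add_apply, LinearMap.mem_ker.1 (hβ hu), add_zero] at this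
  by_cases ha0 : a = 0
  · subst ha0
    rw [map_zero, zero_add] at h
    exact (hG.rich hR hne).row_of u hu β hu0 hβ0 hβ h
  have haa : R a (B a + β) := by
    by_cases hus : u ∈ K ∙ a
    · obtain ⟨k, rfl⟩ := Submodule.mem_span_singleton.1 hus
      have hk : k ≠ 0 := fun e => hu0 (by rw [e, zero_smul])
      have := hR.smull k⁻¹ _ _ h
      rwa [smul_smul, inv_mul_cancel₀ hk, one_smul] at this
    · obtain ⟨x₀, hx₀, hax₀, hux₀⟩ := hG.exists_orth_not_orth ha ha0 hu hus
      refine le_of_forall_notMem (W := W ⊓ LinearMap.ker (B a))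
        (S := hR.leftSet (B a + β)) (H := LinearMap.ker (B u)) (x₀ := x₀)
        ⟨hx₀, by simpa using hax₀⟩ (by simpa using hux₀)
        (fun x hx hxn => hR.comm_left h (hG.mem x hx.1) ?_ ?_)
        ⟨ha, by simp [hG.alt a]⟩
      · rw [LinearMap.add_apply, LinearMap.mem_ker.1 hx.2, LinearMap.mem_ker.1 (hβ hx.1), add_zero]
      · rw [hG.skew]; exact neg_ne_zero.2 (by simpa using hxn)
  have := (hR.rightSet a).sub_mem (hR.mem_rightSet.2 haa) (hR.mem_rightSet.2 (hG.mem a ha))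
  rw [add_sub_cancel_left] at this
  exact (hG.rich hR hne).row_of a ha β ha0 hβ0 hβ this

/-- The kinds of transvections relative to a symplectic block. -/
theorem classify (hR : Sys R) (hne : W ≠ ⊥) {w c a : V} {β : Dual K V} (hw : w ∈ W)
    (hc : c ∈ C) (ha : a ∈ W) (hβ : W ≤ LinearMap.ker β) (h : R (w + c) (B a + β))
    (hv : w + c ≠ 0) (hφ : B a + β ≠ 0) :
    Bigger R (2 * finrank K W) ∨ (c = 0 ∧ β = 0 ∧ ∃ k : K, a = k • w) ∨ (w = 0 ∧ a = 0) ∨
      ∃ k : K, k ≠ 0 ∧ Linked R W C B w c (k • β) := by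
  have hX := hG.rich hR hne
  by_cases hc0 : c = 0
  · subst hc0
    rw [add_zero] at h hv
    by_cases hβ0 : β = 0
    · subst hβ0
      rw [add_zero] at h hφ
      by_cases has : a ∈ K ∙ w
      · obtain ⟨k, rfl⟩ := Submodule.mem_span_singleton.1 has
        exact Or.inr (Or.inl ⟨rfl, rfl, k, rfl⟩)
      · exact Or.inl ⟨W, C, Or.inl ⟨hG.upgrade hR hw hv ha has h, Nat.lt_succ_self _⟩⟩
    · exact Or.inl ((hX.bigger_of_row hR (hG.row_of_mixed hR hne hw hv ha hβ hβ0 h)).mono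
        (Nat.le_succ _))
  by_cases hβ0 : β = 0
  · subst hβ0
    rw [add_zero] at h hφ
    exact Or.inl ((hX.bigger_of_col hR (hG.col_of_mixed hR hne hw hc hc0 ha
      (fun e => hφ (by rw [e, map_zero])) h)).mono (Nat.le_succ _))
  by_cases hw0 : w = 0
  · subst hw0
    by_cases ha0 : a = 0
    · exact Or.inr (Or.inr (Or.inl ⟨rfl, ha0⟩))
    obtain ⟨x, hx, hax⟩ := hG.exists_ne ha ha0
    have hcx : R (0 + c) (B x) := hR.comm_right h (hG.mem x hx)
      (by rw [zero_add]; exact hG.right x hc)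
      (by rw [LinearMap.add_apply, LinearMap.mem_ker.1 (hβ hx), add_zero]; exact hax)
    exact Or.inl ((hX.bigger_of_col hR (hG.col_of_mixed hR hne (zero_mem W) hc hc0 hx
      (fun e => hax (by rw [e, map_zero])) hcx)).mono (Nat.le_succ _))
  by_cases ha0 : a = 0
  · subst ha0
    rw [map_zero, zero_add] at h hφ
    obtain ⟨x, hx, hxw⟩ := hG.exists_ne' hw hw0
    have hxR : R x β := hR.comm_left h (hG.mem x hx) (LinearMap.mem_ker.1 (hβ hx))
      (by rw [map_add, hG.right x hc, add_zero]; exact hxw)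
    exact Or.inl ((hX.bigger_of_row hR (hX.row_of x hx β
      (fun e => hxw (by rw [e, map_zero, LinearMap.zero_apply])) hβ0 hβ hxR)).mono (Nat.le_succ _))
  by_cases has : a ∈ K ∙ w
  · obtain ⟨k, rfl⟩ := Submodule.mem_span_singleton.1 has
    have hk : k ≠ 0 := fun e => ha0 (by rw [e, zero_smul])
    refine Or.inr (Or.inr (Or.inr ⟨k⁻¹, inv_ne_zero hk, hw, hw0, hc, hc0, ?_, ?_, ?_, ?_⟩))
    · exact fun x hx => by simp [LinearMap.mem_ker.1 (hβ hx)]
    · exact smul_ne_zero (inv_ne_zero hk) hβ0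
    · have := hR.van _ _ h
      rw [LinearMap.add_apply, map_add, map_add, map_smul, LinearMap.smul_apply,
        LinearMap.smul_apply, hG.alt w, hG.right w hc, LinearMap.mem_ker.1 (hβ hw), smul_zero,
        zero_add, zero_add, zero_add] at this
      rw [LinearMap.smul_apply, this, smul_zero]
    · have := hR.smulr k⁻¹ _ _ h
      rwa [smul_add, map_smul, smul_smul, inv_mul_cancel₀ hk, one_smul] at this
  · obtain ⟨x, hx, hwx, hax⟩ := hG.exists_orth_not_orth hw hw0 ha has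
    have hcx : R (w + c) (B x) := hR.comm_right h (hG.mem x hx)
      (by rw [map_add, hG.right x hc, add_zero, hG.skew, hwx, neg_zero])
      (by rw [LinearMap.add_apply, LinearMap.mem_ker.1 (hβ hx), add_zero]; exact hax)
    exact Or.inl ((hX.bigger_of_col hR (hG.col_of_mixed hR hne hw hc hc0 hx
      (fun e => hax (by rw [e, map_zero])) hcx)).mono (Nat.le_succ _))

/-- An element neither inside nor outside enlarges the block. -/
theorem bigger (hR : Sys R) (hne : W ≠ ⊥) {v : V} {φ : Dual K V} (h : R v φ) (hv : v ≠ 0)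
    (hφ : φ ≠ 0) (hout : ¬ (v ∈ C ∧ W ≤ LinearMap.ker φ))
    (hin : ¬ (v ∈ W ∧ ∃ k : K, φ = k • B v)) : Bigger R (2 * finrank K W) := by
  obtain ⟨w, hw, c, hc, rfl⟩ := exists_parts hG.hc v
  obtain ⟨α, β, rfl, hα, hβ⟩ := exists_dual_parts hG.hc φ
  obtain ⟨a, ha, rfl⟩ := hG.exists_rep hα
  obtain hb | ⟨rfl, rfl, k, rfl⟩ | ⟨rfl, rfl⟩ | ⟨k, -, hL⟩ :=
    hG.classify hR hne hw hc ha hβ h hv hφ
  · exact hb
  · exact absurd ⟨by rwa [add_zero], k, by rw [add_zero, add_zero, map_smul]⟩ hin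
  · exact absurd ⟨by rwa [zero_add], by rwa [map_zero, zero_add]⟩ hout
  generalize hβ₁ : k • β = β₁ at hL
  clear hβ₁
  have hcR : R c β₁ := hG.linked_central hR hL
  obtain ⟨x, χ, hx, hβx, hχc⟩ := hR.opp c β₁ hcR hL.hc0 hL.hβ0
  obtain ⟨w', hw', c', hc', rfl⟩ := exists_parts hG.hc x
  obtain ⟨α', β', rfl, hα', hβ'⟩ := exists_dual_parts hG.hc χ
  obtain ⟨a', ha', rfl⟩ := hG.exists_rep hα'
  rw [map_add, LinearMap.mem_ker.1 (hL.hβ hw'), zero_add] at hβx
  rw [LinearMap.add_apply, hG.right a' hc, zero_add] at hχc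
  have hc'0 : c' ≠ 0 := fun e => hβx (by rw [e, map_zero])
  have hβ'0 : β' ≠ 0 := fun e => hχc (by rw [e, LinearMap.zero_apply])
  have hv' : w' + c' ≠ 0 := fun e => hc'0 (eq_zero_of_parts hG.hc hw' hc' e).2
  have hφ' : B a' + β' ≠ 0 := fun e => hχc (by
    simpa [hG.right a' hc] using LinearMap.congr_fun e c)
  have key : ∀ δ : Dual K V, W ≤ LinearMap.ker δ → δ c ≠ 0 → R c' δ →
      Bigger R (2 * finrank K W) := by
    intro δ hδ hδc hδR
    refine extend_sp hR hG hc hc' hL.hβ (β' := (-(β₁ c') / δ c) • δ) ?_ hL.hβc ?_ hβx ?_ hcR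
      (hR.smulr _ _ _ hδR) fun u hu hu0 => hG.linked_all hR hL hu hu0
    · exact fun y hy => by simp [LinearMap.mem_ker.1 (hδ hy)]
    · rw [LinearMap.smul_apply, hR.van _ _ hδR, smul_zero]
    · rw [LinearMap.smul_apply, smul_eq_mul, div_mul_cancel₀ _ hδc]
  obtain hb | ⟨rfl, -, -⟩ | ⟨rfl, rfl⟩ | ⟨k', hk', hL'⟩ :=
    hG.classify hR hne hw' hc' ha' hβ' hx hv' hφ'
  · exact hb
  · exact absurd rfl hc'0
  · exact key β' hβ' hχc (by simpa using hx)
  · exact key _ hL'.hβ (by rw [LinearMap.smul_apply]; exact smul_ne_zero hk' hχc)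
      (hG.linked_central hR hL')

end GoodSp

end Cfsg.Agent.Lib.TransvGen
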