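import Cfsg.Agent.Lib.TransvGen.SL
import Cfsg.Agent.Lib.TransvGen.SpClassify

/-!
# Decomposition of a system of transvections into blocks
-/

set_option autoImplicit false
set_option linter.unusedSectionVars false

namespace Cfsg.Agent.Lib.TransvGen

open Module

universe u v

variable {K : Type u} [Field K] {V : Type v} [AddCommGroup V] [Module K V] [FiniteDimensional K V]
  {R : V → Dual K V → Prop} {W C : Submodule K V}

/-- A block that cannot be enlarged. -/
structure ClosedBlock (R : V → Dual K V → Prop) (W C : Submodule K V) : Prop where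
  ne : W ≠ ⊥
  closed : ∀ v φ, R v φ → v ≠ 0 → φ ≠ 0 →
    (v ∈ C ∧ W ≤ LinearMap.ker φ) ∨ (v ∈ W ∧ C ≤ LinearMap.ker φ)
  kind : GoodSL R W C ∨ ∃ B, GoodSp R W C B ∧
    ∀ v φ, R v φ → v ∈ W → v ≠ 0 → C ≤ LinearMap.ker φ → ∃ k : K, φ = k • B v

theorem ClosedBlock.isCompl (h : ClosedBlock R W C) : IsCompl W C := by
  obtain h | ⟨B, h, -⟩ := h.kind <;> exact h.hc

theorem ClosedBlock.fix (h : ClosedBlock R W C) : fixR R ≤ C := by
  obtain h | ⟨B, h, -⟩ := h.kind <;> exact h.fix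

theorem exists_bigger_zero (hR : Sys R) {c : V} {β : Dual K V} (h : R c β) (hc : c ≠ 0)
    (hβ : β ≠ 0) : Bigger R 0 := by
  obtain ⟨c', β', h', hβc', hβ'c⟩ := hR.opp c β h hc hβ
  have hG : GoodSp R ⊥ ⊤ (0 : LinearMap.BilinForm K V) :=
    ⟨isCompl_bot_top, le_top, fun x => rfl, fun _ _ _ => rfl,
      fun u hu _ => (Submodule.mem_bot K).1 hu,
      fun u hu => by rw [(Submodule.mem_bot K).1 hu]; exact hR.zl _⟩
  have hz : ∀ (δ : Dual K V), (⊥ : Submodule K V) ≤ LinearMap.ker δ := fun _ => bot_le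
  have := extend_sp hR hG (c := c) (c' := c') (β := β) (β' := (-(β c') / β' c) • β') trivial trivial
    (hz _) (hz _) (hR.van _ _ h) (by rw [LinearMap.smul_apply, hR.van _ _ h', smul_zero]) hβc'
    (by rw [LinearMap.smul_apply, smul_eq_mul, div_mul_cancel₀ _ hβ'c]) h (hR.smulr _ _ _ h')
    (fun u hu hu0 => absurd ((Submodule.mem_bot K).1 hu) hu0)
  exact this.mono (Nat.zero_le _)

theorem exists_closedBlock (hR : Sys R) {c : V} {β : Dual K V} (h : R c β) (hc : c ≠ 0)
    (hβ : β ≠ 0) : ∃ W C, ClosedBlock R W C := by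
  classical
  have h0 := exists_bigger_zero hR h hc hβ
  set N := 2 * finrank K V + 1
  set n := Nat.findGreatest (Bigger R) N with hn
  have hP : Bigger R n := Nat.findGreatest_spec (Nat.zero_le N) h0
  have hmax : ∀ m, n < m → m ≤ N → ¬ Bigger R m := fun m h1 h2 =>
    Nat.findGreatest_is_greatest h1 h2
  obtain ⟨W, C, ⟨hG, hlt⟩ | ⟨B, hG, hne, hlt⟩⟩ := hP
  · have hle : finrank K W ≤ finrank K V := W.finrank_le
    refine ⟨W, C, fun e => ?_, fun v φ hv hv0 hφ0 => ?_, Or.inl hG⟩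
    · have := hG.dim
      rw [e, finrank_bot] at this
      omega
    · by_contra hcon
      push Not at hcon
      exact hmax _ hlt (by omega) (hG.bigger hR hv hv0 hφ0 (fun h => hcon.1 h.1 h.2)
        fun h => hcon.2 h.1 h.2)
  · have hle : finrank K W ≤ finrank K V := W.finrank_le
    have hb : ¬ Bigger R (2 * finrank K W) := hmax _ hlt (by omega)
    refine ⟨W, C, hne, fun v φ hv hv0 hφ0 => ?_, Or.inr ⟨B, hG, fun v φ hv hvW hv0 _ => ?_⟩⟩
    · by_contra hcon
      push Not at hcon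
      refine hb (hG.bigger hR hne hv hv0 hφ0 (fun h => hcon.1 h.1 h.2) ?_)
      rintro ⟨h1, k, rfl⟩
      exact hcon.2 h1 fun x hx => by simp [hG.right v hx]
    · by_cases hφ0 : φ = 0
      · exact ⟨0, by rw [hφ0, zero_smul]⟩
      by_contra hcon
      refine hb (hG.bigger hR hne hv hv0 hφ0 (fun h => hv0 ?_) fun h => hcon h.2)
      exact Submodule.disjoint_def.1 hG.hc.disjoint v hvW h.1

/-- The transvections commuting with a block. -/
def outside (R : V → Dual K V → Prop) (W C : Submodule K V) (v : V) (φ : Dual K V) : Prop :=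
  v = 0 ∨ φ = 0 ∨ (R v φ ∧ v ∈ C ∧ W ≤ LinearMap.ker φ)

theorem outside_le (hR : Sys R) {v : V} {φ : Dual K V} (h : outside R W C v φ) : R v φ := by
  obtain rfl | rfl | h := h
  · exact hR.zl _
  · exact hR.zr _
  · exact h.1

theorem outside_sys (hR : Sys R) (hB : ClosedBlock R W C) : Sys (outside R W C) where
  two := hR.two
  van v φ h := hR.van _ _ (outside_le hR h)
  zl _ := Or.inl rfl
  zr _ := Or.inr (Or.inl rfl)
  addl v w φ h1 h2 := by
    obtain rfl | rfl | ⟨a1, a2, a3⟩ := h1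
    · rwa [zero_add]
    · exact Or.inr (Or.inl rfl)
    obtain rfl | rfl | ⟨b1, b2, -⟩ := h2
    · rw [add_zero]; exact Or.inr (Or.inr ⟨a1, a2, a3⟩)
    · exact Or.inr (Or.inl rfl)
    exact Or.inr (Or.inr ⟨hR.addl _ _ _ a1 b1, add_mem a2 b2, a3⟩)
  addr v φ ψ h1 h2 := by
    obtain rfl | rfl | ⟨a1, a2, a3⟩ := h1
    · exact Or.inl rfl
    · rwa [zero_add]
    obtain rfl | rfl | ⟨b1, -, b3⟩ := h2
    · exact Or.inl rfl
    · rw [add_zero]; exact Or.inr (Or.inr ⟨a1, a2, a3⟩)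
    refine Or.inr (Or.inr ⟨hR.addr _ _ _ a1 b1, a2, fun x hx => ?_⟩)
    rw [LinearMap.mem_ker, LinearMap.add_apply, a3 hx, b3 hx, add_zero]
  smull a v φ h := by
    obtain rfl | rfl | ⟨a1, a2, a3⟩ := h
    · exact Or.inl (smul_zero a)
    · exact Or.inr (Or.inl rfl)
    exact Or.inr (Or.inr ⟨hR.smull a _ _ a1, C.smul_mem a a2, a3⟩)
  smulr a v φ h := by
    obtain rfl | rfl | ⟨a1, a2, a3⟩ := h
    · exact Or.inl rfl
    · exact Or.inr (Or.inl (smul_zero a))
    refine Or.inr (Or.inr ⟨hR.smulr a _ _ a1, a2, fun x hx => ?_⟩)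
    rw [LinearMap.mem_ker, LinearMap.smul_apply, a3 hx, smul_zero]
  conj v φ u γ h1 h2 := by
    obtain rfl | rfl | ⟨a1, a2, a3⟩ := h1
    · exact Or.inl (by simp)
    · exact Or.inr (Or.inl (by simp))
    obtain rfl | rfl | ⟨b1, b2, b3⟩ := h2
    · simp only [smul_zero, add_zero, map_zero, zero_smul, sub_zero]
      exact Or.inr (Or.inr ⟨a1, a2, a3⟩)
    · simp only [smul_zero, LinearMap.zero_apply, zero_smul, add_zero, sub_zero]
      exact Or.inr (Or.inr ⟨a1, a2, a3⟩)
    refine Or.inr (Or.inr ⟨hR.conj _ _ _ _ a1 b1, add_mem a2 (C.smul_mem _ b2), fun x hx => ?_⟩)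
    rw [LinearMap.mem_ker, LinearMap.sub_apply, LinearMap.smul_apply, a3 hx, b3 hx, smul_zero,
      sub_zero]
  par y δ c β h1 h2 h3 n1 n2 n3 n4 n5 n6 hδc hβy := by
    have hr := hR.par y δ c β (outside_le hR h1) (outside_le hR h2) (outside_le hR h3) n1 n2 n3 n4
      n5 n6 hδc hβy
    obtain e | e | ⟨-, a2, a3⟩ := h1
    · exact absurd e n1
    · exact absurd e n4
    obtain e | e | ⟨-, b2, b3⟩ := h3
    · exact absurd e n3
    · exact absurd e n6
    refine Or.inr (Or.inr ⟨hr, by simpa using sub_mem a2 b2, fun x hx => ?_⟩)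
    have := a3 hx
    rw [LinearMap.mem_ker, LinearMap.add_apply, b3 hx, zero_add] at this
    exact this
  opp v φ h hv hφ := by
    obtain rfl | rfl | ⟨a1, a2, a3⟩ := h
    · exact absurd rfl hv
    · exact absurd rfl hφ
    obtain ⟨w, ψ, hw, e1, e2⟩ := hR.opp v φ a1 hv hφ
    obtain ⟨c1, c2⟩ | ⟨c1, -⟩ := hB.closed w ψ hw (fun e => e1 (by rw [e, map_zero]))
      (fun e => e2 (by rw [e, LinearMap.zero_apply]))
    · exact ⟨w, ψ, Or.inr (Or.inr ⟨hw, c1, c2⟩), e1, e2⟩
    · exact absurd (a3 c1) e1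

theorem le_fixR_outside : W ≤ fixR (outside R W C) := by
  refine fun x hx => mem_fixR.2 fun v φ h hv => ?_
  obtain e | rfl | ⟨-, -, a3⟩ := h
  · exact absurd e hv
  · rfl
  · exact a3 hx

theorem fixR_le_outside (hR : Sys R) : fixR R ≤ fixR (outside R W C) :=
  fun _ hx => mem_fixR.2 fun v φ h hv => mem_fixR.1 hx v φ (outside_le hR h) hv

/-- A family of blocks accounting for all the transvections. -/
structure Decomp (R : V → Dual K V → Prop) {n : ℕ} (W C : Fin n → Submodule K V) : Prop where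
  block : ∀ j, (W j = ⊥ ∧ C j = ⊤) ∨ ClosedBlock R (W j) (C j)
  cross : ∀ i j, i ≠ j → W i ≤ C j
  cover : ∀ v φ, R v φ → v ≠ 0 → φ ≠ 0 → ∃ j, v ∈ W j ∧ C j ≤ LinearMap.ker φ

theorem Decomp.isCompl {n : ℕ} {W C : Fin n → Submodule K V} (h : Decomp R W C) (j : Fin n) :
    IsCompl (W j) (C j) := by
  obtain ⟨e1, e2⟩ | hb := h.block j
  · rw [e1, e2]; exact isCompl_bot_top
  · exact hb.isCompl

theorem block_le_of_outside {W' C' : Submodule K V} (hB' : ClosedBlock (outside R W C) W' C') :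
    W' ≤ C := by
  intro u hu
  by_cases hu0 : u = 0
  · rw [hu0]; exact zero_mem _
  have : ∃ γ : Dual K V, γ ≠ 0 ∧ outside R W C u γ := by
    obtain hG | ⟨B, hG, -⟩ := hB'.kind
    · obtain ⟨y, hy, hyn⟩ := exists_mem_notMem_span_pair hG.dim u u
      obtain ⟨γ, hγC, hγu, hγy⟩ := exists_functional hG.hc hy
        ((Submodule.span_singleton_le_iff_mem u W').2 hu) (by simpa using hyn)
      exact ⟨γ, fun h => hγy (by rw [h, LinearMap.zero_apply]),
        hG.mem u hu γ hγC (LinearMap.mem_ker.1 (hγu (Submodule.mem_span_singleton_self u)))⟩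
    · exact ⟨B u, hG.form_ne_zero hu hu0, hG.mem u hu⟩
  obtain ⟨γ, hγ, h | h | ⟨-, h, -⟩⟩ := this
  · exact absurd h hu0
  · exact absurd h hγ
  · exact h

theorem closedBlock_of_outside (hR : Sys R) (hB : ClosedBlock R W C) {W' C' : Submodule K V}
    (hB' : ClosedBlock (outside R W C) W' C') : ClosedBlock R W' C' := by
  have hW' : W' ≤ C := block_le_of_outside hB'
  have hW : W ≤ C' := le_fixR_outside.trans hB'.fix
  refine ⟨hB'.ne, fun v φ h hv hφ => ?_, ?_⟩
  · obtain ⟨c1, c2⟩ | ⟨c1, c2⟩ := hB.closed v φ h hv hφ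
    · exact hB'.closed v φ (Or.inr (Or.inr ⟨h, c1, c2⟩)) hv hφ
    · exact Or.inl ⟨hW c1, hW'.trans c2⟩
  · obtain hG | ⟨B, hG, hin⟩ := hB'.kind
    · exact Or.inl ⟨hG.hc, (fixR_le_outside hR).trans hG.fix, hG.dim,
        fun u hu γ hγ hγu => outside_le hR (hG.mem u hu γ hγ hγu)⟩
    · refine Or.inr ⟨B, ⟨hG.hc, (fixR_le_outside hR).trans hG.fix, hG.alt, hG.left, hG.nd,
        fun u hu => outside_le hR (hG.mem u hu)⟩, fun v φ h hvW hv hφC => ?_⟩
      by_cases hφ : φ = 0
      · exact ⟨0, by rw [hφ, zero_smul]⟩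
      obtain ⟨c1, c2⟩ | ⟨c1, -⟩ := hB.closed v φ h hv hφ
      · exact hin v φ (Or.inr (Or.inr ⟨h, c1, c2⟩)) hvW hv hφC
      · exact absurd (Submodule.disjoint_def.1 hB.isCompl.disjoint v c1 (hW' hvW)) hv

theorem exists_decomp_aux : ∀ (m : ℕ) (R : V → Dual K V → Prop), Sys R →
    finrank K (moveR R) ≤ m → ∃ (n : ℕ) (W C : Fin n → Submodule K V), Decomp R W C := by
  intro m
  induction m using Nat.strong_induction_on with
  | _ m ih =>
    intro R hR hm
    by_cases hex : ∃ v φ, R v φ ∧ v ≠ 0 ∧ φ ≠ 0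
    · obtain ⟨v, φ, h, hv, hφ⟩ := hex
      obtain ⟨W, C, hB⟩ := exists_closedBlock hR h hv hφ
      have hle : moveR (outside R W C) ≤ moveR R ⊓ C := by
        refine Submodule.span_le.2 ?_
        rintro x ⟨ψ, h | h | ⟨h1, h2, -⟩, hψ⟩
        · rw [h]; exact zero_mem _
        · exact absurd h hψ
        · exact ⟨mem_moveR h1 hψ, h2⟩
      obtain ⟨u, hu, hu0⟩ := Submodule.exists_mem_ne_zero_of_ne_bot hB.ne
      have hum : u ∈ moveR R := by
        obtain hG | ⟨B, hG, -⟩ := hB.kind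
        · obtain ⟨y, hy, hyn⟩ := exists_mem_notMem_span_pair hG.dim u u
          obtain ⟨γ, hγC, hγu, hγy⟩ := exists_functional hG.hc hy
            ((Submodule.span_singleton_le_iff_mem u W).2 hu) (by simpa using hyn)
          exact mem_moveR
            (hG.mem u hu γ hγC (LinearMap.mem_ker.1 (hγu (Submodule.mem_span_singleton_self u))))
            fun h => hγy (by rw [h, LinearMap.zero_apply])
        · exact mem_moveR (hG.mem u hu) (hG.form_ne_zero hu hu0)
      have hlt : finrank K (moveR (outside R W C)) < m := by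
        refine lt_of_lt_of_le (Submodule.finrank_lt_finrank_of_lt ?_) hm
        refine lt_of_le_of_ne (hle.trans inf_le_left) fun e => hu0 ?_
        exact Submodule.disjoint_def.1 hB.isCompl.disjoint u hu (hle (e.symm ▸ hum)).2
      obtain ⟨n, Ws, Cs, hD⟩ := ih _ hlt _ (outside_sys hR hB) le_rfl
      have hblock : ∀ j, (Ws j = ⊥ ∧ Cs j = ⊤) ∨ ClosedBlock R (Ws j) (Cs j) := fun j =>
        (hD.block j).imp_right (closedBlock_of_outside hR hB)
      have hWC : ∀ j, Ws j ≤ C ∧ W ≤ Cs j := fun j => by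
        obtain ⟨e1, e2⟩ | hb := hD.block j
        · rw [e1, e2]; exact ⟨bot_le, le_top⟩
        · exact ⟨block_le_of_outside hb, le_fixR_outside.trans hb.fix⟩
      refine ⟨n + 1, Fin.cons W Ws, Fin.cons C Cs, ?_, ?_, ?_⟩
      · exact Fin.cases (Or.inr (by simpa using hB)) (fun j => by simpa using hblock j)
      · refine Fin.cases (Fin.cases (fun h => absurd rfl h) fun j _ => ?_) fun i =>
          Fin.cases (fun _ => ?_) fun j h => ?_
        · simpa using (hWC j).2
        · simpa using (hWC i).1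
        · simpa using hD.cross i j fun e => h (congrArg Fin.succ e)
      · intro v φ h hv hφ
        obtain ⟨c1, c2⟩ | ⟨c1, c2⟩ := hB.closed v φ h hv hφ
        · obtain ⟨j, hj1, hj2⟩ := hD.cover v φ (Or.inr (Or.inr ⟨h, c1, c2⟩)) hv hφ
          exact ⟨j.succ, by simpa using hj1, by simpa using hj2⟩
        · exact ⟨0, by simpa using c1, by simpa using c2⟩
    · push Not at hex
      exact ⟨0, Fin.elim0, Fin.elim0, fun j => j.elim0, fun j => j.elim0,
        fun v φ h hv hφ => absurd (hex v φ h hv) hφ⟩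

theorem exists_decomp (hR : Sys R) :
    ∃ (n : ℕ) (W C : Fin (n + 1) → Submodule K V), Decomp R W C := by
  obtain ⟨n, W, C, h⟩ := exists_decomp_aux _ R hR le_rfl
  refine ⟨n, Fin.cons ⊥ W, Fin.cons ⊤ C, ?_, ?_, ?_⟩
  · exact Fin.cases (Or.inl (by simp)) fun j => by simpa using h.block j
  · refine Fin.cases (fun j _ => by simp) fun i => Fin.cases (fun _ => by simp) fun j hij => ?_
    simpa using h.cross i j fun e => hij (congrArg Fin.succ e)
  · intro v φ hv hv0 hφ0
    obtain ⟨j, hj1, hj2⟩ := h.cover v φ hv hv0 hφ0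
    exact ⟨j.succ, by simpa using hj1, by simpa using hj2⟩

end Cfsg.Agent.Lib.TransvGen
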