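import Cfsg.Agent.Lib.TransvGen.Block

/-!
# Rows and columns enlarge a block
-/

set_option autoImplicit false

namespace Cfsg.Agent.Lib.TransvGen

open Module

universe u v

variable {K : Type u} [Field K] {V : Type v} [AddCommGroup V] [Module K V]
  {R : V → Dual K V → Prop} {W C : Submodule K V}

/-- What is used about a block to pass between rows and columns. -/
structure Rich (R : V → Dual K V → Prop) (W C : Submodule K V) : Prop where
  hc : IsCompl W C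
  fix : fixR R ≤ C
  dim : 2 ≤ finrank K W
  sep : ∀ α : Dual K V, C ≤ LinearMap.ker α → α ≠ 0 →
    ∃ u ∈ W, ∃ γ : Dual K V, C ≤ LinearMap.ker γ ∧ γ ≠ 0 ∧ R u γ ∧ α u ≠ 0
  sep' : ∀ w ∈ W, w ≠ 0 →
    ∃ u ∈ W, u ≠ 0 ∧ ∃ γ : Dual K V, C ≤ LinearMap.ker γ ∧ R u γ ∧ γ w ≠ 0
  row_of : ∀ u ∈ W, ∀ β : Dual K V, u ≠ 0 → β ≠ 0 → W ≤ LinearMap.ker β → R u β → Row R W β
  col_of : ∀ c ∈ C, ∀ γ : Dual K V, c ≠ 0 → γ ≠ 0 → C ≤ LinearMap.ker γ → R c γ → Col R W C c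

theorem exists_ne_zero_mem (hdim : 1 ≤ finrank K W) : ∃ u ∈ W, u ≠ 0 :=
  Submodule.exists_mem_ne_zero_of_ne_bot fun h => by rw [h, finrank_bot] at hdim; omega

theorem Rich.bigger_of_row [FiniteDimensional K V] (hR : Sys R) (hX : Rich R W C)
    {β : Dual K V} (hrow : Row R W β) : Bigger R (2 * finrank K W + 1) := by
  obtain ⟨u₀, hu₀, hu₀0⟩ := exists_ne_zero_mem (by have := hX.dim; omega : 1 ≤ finrank K W)
  obtain ⟨x, χ, hx, hβx, hχu⟩ := hR.opp u₀ β (hrow.mem u₀ hu₀) hu₀0 hrow.ne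
  obtain ⟨w, hw, c, hc, rfl⟩ := exists_parts hX.hc x
  obtain ⟨α, β', rfl, hα, hβ'⟩ := exists_dual_parts hX.hc χ
  have hβc : β c ≠ 0 := by rwa [map_add, LinearMap.mem_ker.1 (hrow.ker hw), zero_add] at hβx
  have hαu : α u₀ ≠ 0 := by
    rwa [LinearMap.add_apply, LinearMap.mem_ker.1 (hβ' hu₀), add_zero] at hχu
  obtain ⟨u, hu, γ, hγC, hγ0, hγ, hαu'⟩ := hX.sep α hα fun h => hαu (by rw [h, LinearMap.zero_apply])
  set u₁ := (-(β c)⁻¹) • w with hu₁
  have hu₁W : u₁ ∈ W := Submodule.smul_mem _ _ hw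
  have h := hR.conj (w + c) (α + β') u₁ β hx (hrow.mem u₁ hu₁W)
  have e : w + c + β (w + c) • u₁ = c := by
    rw [map_add, LinearMap.mem_ker.1 (hrow.ker hw), zero_add, hu₁, smul_smul, mul_neg,
      mul_inv_cancel₀ hβc, neg_smul, one_smul]
    abel
  rw [e] at h
  have hcol := hX.col_of c hc γ (fun h0 => hβc (by rw [h0, map_zero])) hγ0 hγC
    (hR.comm_right h hγ (LinearMap.mem_ker.1 (hγC hc)) (by
      rw [LinearMap.sub_apply, LinearMap.smul_apply, LinearMap.mem_ker.1 (hrow.ker hu), smul_zero,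
        sub_zero, LinearMap.add_apply, LinearMap.mem_ker.1 (hβ' hu), add_zero]
      exact hαu'))
  exact bigger_of_row_col hR hX.hc hX.fix hX.dim hrow hcol hβc

theorem Rich.bigger_of_col [FiniteDimensional K V] (hR : Sys R) (hX : Rich R W C)
    {c : V} (hcol : Col R W C c) : Bigger R (2 * finrank K W + 1) := by
  obtain ⟨u₀, hu₀, hu₀0⟩ := exists_ne_zero_mem (by have := hX.dim; omega : 1 ≤ finrank K W)
  obtain ⟨γ₀, hγ₀C, -, hγ₀u⟩ := exists_functional hX.hc hu₀ (bot_le : ⊥ ≤ W)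
    (by simpa using hu₀0)
  obtain ⟨x, χ, hx, hγx, hχc⟩ := hR.opp c γ₀ (hcol.mem γ₀ hγ₀C) hcol.ne
    fun h => hγ₀u (by rw [h, LinearMap.zero_apply])
  obtain ⟨w, hw, c', hc', rfl⟩ := exists_parts hX.hc x
  obtain ⟨α, β', rfl, hα, hβ'⟩ := exists_dual_parts hX.hc χ
  have hβc : β' c ≠ 0 := by
    rwa [LinearMap.add_apply, LinearMap.mem_ker.1 (hα hcol.mem_C), zero_add] at hχc
  have hw0 : w ≠ 0 := fun h => hγx (by rw [h, zero_add]; exact LinearMap.mem_ker.1 (hγ₀C hc'))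
  set γ := (β' c)⁻¹ • α with hγdef
  have hγC : C ≤ LinearMap.ker γ := fun y hy => by
    rw [LinearMap.mem_ker, hγdef, LinearMap.smul_apply, LinearMap.mem_ker.1 (hα hy), smul_zero]
  have h := hR.conj (w + c') (α + β') c γ hx (hcol.mem γ hγC)
  have e : α + β' - (α + β') c • γ = β' := by
    rw [LinearMap.add_apply, LinearMap.mem_ker.1 (hα hcol.mem_C), zero_add, hγdef, smul_smul,
      mul_inv_cancel₀ hβc, one_smul, add_sub_cancel_left]
  rw [e] at h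
  obtain ⟨u, hu, hu0, γ₁, hγ₁C, hγ₁, hγ₁w⟩ := hX.sep' w hw hw0
  have hrow := hX.row_of u hu β' hu0 (fun h0 => hβc (by rw [h0, LinearMap.zero_apply])) hβ'
    (hR.comm_left h hγ₁ (LinearMap.mem_ker.1 (hβ' hu)) (by
      rw [map_add, map_smul, map_add, LinearMap.mem_ker.1 (hγ₁C hc'), add_zero,
        LinearMap.mem_ker.1 (hγ₁C hcol.mem_C), smul_zero, add_zero]
      exact hγ₁w))
  exact bigger_of_row_col hR hX.hc hX.fix hX.dim hrow hcol hβc

end Cfsg.Agent.Lib.TransvGen
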