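import Cfsg.Agent.Lib.TransvGen.Rich

/-!
# Special linear blocks are closed unless they can be enlarged
-/

set_option autoImplicit false

namespace Cfsg.Agent.Lib.TransvGen

open Module

universe u v

variable {K : Type u} [Field K] {V : Type v} [AddCommGroup V] [Module K V] [FiniteDimensional K V]
  {R : V → Dual K V → Prop} {W C : Submodule K V}

theorem GoodSL.rich (hR : Sys R) (hG : GoodSL R W C) : Rich R W C where
  hc := hG.hc
  fix := hG.fix
  dim := by have := hG.dim; omega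
  sep α hα hα0 := by
    obtain ⟨u, hu, hαu⟩ : ∃ u ∈ W, α u ≠ 0 := by
      by_contra h; push Not at h; exact hα0 (eq_zero_of_forall_left hG.hc hα h)
    obtain ⟨y, hy, hyn⟩ := exists_mem_notMem_span_pair hG.dim u u
    obtain ⟨γ, hγC, hγu, hγy⟩ := exists_functional hG.hc hy
      ((Submodule.span_singleton_le_iff_mem u W).2 hu) (by simpa using hyn)
    exact ⟨u, hu, γ, hγC, fun h => hγy (by rw [h, LinearMap.zero_apply]),
      hG.mem u hu γ hγC (LinearMap.mem_ker.1 (hγu (Submodule.mem_span_singleton_self u))), hαu⟩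
  sep' w hw hw0 := by
    obtain ⟨y, hy, hyn⟩ := exists_mem_notMem_span_pair hG.dim w w
    have hwy : w ∉ K ∙ y := fun h => by
      obtain ⟨a, ha⟩ := Submodule.mem_span_singleton.1 h
      have ha0 : a ≠ 0 := fun e => hw0 (by rw [← ha, e, zero_smul])
      refine hyn (Submodule.mem_span_pair.2 ⟨a⁻¹, 0, ?_⟩)
      rw [zero_smul, add_zero, ← ha, smul_smul, inv_mul_cancel₀ ha0, one_smul]
    obtain ⟨γ, hγC, hγy, hγw⟩ := exists_functional hG.hc hw
      ((Submodule.span_singleton_le_iff_mem y W).2 hy) hwy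
    exact ⟨y, hy, fun h => hyn (h ▸ zero_mem _), γ, hγC,
      hG.mem y hy γ hγC (LinearMap.mem_ker.1 (hγy (Submodule.mem_span_singleton_self y))), hγw⟩
  row_of u₀ hu₀ β hu0 hβ hβW h := by
    refine ⟨hβ, hβW, fun u hu => ?_⟩
    by_cases hspan : u₀ ∈ K ∙ u
    · obtain ⟨a, ha⟩ := Submodule.mem_span_singleton.1 hspan
      have ha0 : a ≠ 0 := fun e => hu0 (by rw [← ha, e, zero_smul])
      have := hR.smull a⁻¹ _ _ h
      rwa [← ha, smul_smul, inv_mul_cancel₀ ha0, one_smul] at this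
    obtain ⟨γ, hγC, hγu, hγu0⟩ := exists_functional hG.hc hu₀
      ((Submodule.span_singleton_le_iff_mem u W).2 hu) hspan
    have hγu' := LinearMap.mem_ker.1 (hγu (Submodule.mem_span_singleton_self u))
    exact hR.comm_left h (hG.mem u hu γ hγC hγu') (LinearMap.mem_ker.1 (hβW hu)) hγu0
  col_of c hc γ₀ hc0 hγ0 hγ₀C h := by
    refine ⟨hc0, hc, fun γ hγC => ?_⟩
    obtain ⟨u, hu, hγ₀u⟩ : ∃ u ∈ W, γ₀ u ≠ 0 := by
      by_contra h'; push Not at h'; exact hγ0 (eq_zero_of_forall_left hG.hc hγ₀C h')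
    by_cases hex : ∃ x ∈ W, γ x = 0 ∧ γ₀ x ≠ 0
    · obtain ⟨x, hx, hγx, hγ₀x⟩ := hex
      exact hR.comm_right h (hG.mem x hx γ hγC hγx) (LinearMap.mem_ker.1 (hγC hc)) hγ₀x
    push Not at hex
    have e : γ = (γ u * (γ₀ u)⁻¹) • γ₀ := by
      refine sub_eq_zero.1 (eq_zero_of_forall_left hG.hc (fun y hy => ?_) fun y hy => ?_)
      · simp [LinearMap.mem_ker.1 (hγC hy), LinearMap.mem_ker.1 (hγ₀C hy)]
      · by_cases hgu : γ u = 0
        · exact absurd (hex u hu hgu) hγ₀u
        · have h1 := hex (y - (γ y * (γ u)⁻¹) • u) (sub_mem hy (Submodule.smul_mem _ _ hu))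
            (by simp [hgu])
          rw [map_sub, map_smul, smul_eq_mul, sub_eq_zero] at h1
          rw [LinearMap.sub_apply, LinearMap.smul_apply, smul_eq_mul, h1]
          field_simp
          ring
    rw [e]
    exact hR.smulr _ _ _ h

/-- An element neither inside nor outside enlarges the block. -/
theorem GoodSL.bigger (hR : Sys R) (hG : GoodSL R W C) {v : V} {φ : Dual K V} (h : R v φ)
    (hv : v ≠ 0) (hφ : φ ≠ 0) (hout : ¬ (v ∈ C ∧ W ≤ LinearMap.ker φ))
    (hin : ¬ (v ∈ W ∧ C ≤ LinearMap.ker φ)) : Bigger R (2 * finrank K W + 1) := by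
  obtain ⟨w, hw, c, hc, rfl⟩ := exists_parts hG.hc v
  obtain ⟨α, β, rfl, hα, hβ⟩ := exists_dual_parts hG.hc φ
  have hX := hG.rich hR
  have claimCol : c ≠ 0 → ∀ γ : Dual K V, γ ≠ 0 → C ≤ LinearMap.ker γ → R (w + c) γ →
      Bigger R (2 * finrank K W + 1) := by
    intro hc0 γ hγ0 hγC hwc
    have hγw : γ w = 0 := by
      have := hR.van _ _ hwc
      rwa [map_add, LinearMap.mem_ker.1 (hγC hc), add_zero] at this
    refine hX.bigger_of_col hR (hX.col_of c hc γ hc0 hγ0 hγC ?_)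
    have := (hR.leftSet γ).sub_mem (hR.mem_leftSet.2 hwc) (hR.mem_leftSet.2 (hG.mem w hw γ hγC hγw))
    rwa [add_sub_cancel_left] at this
  have claimRow : β ≠ 0 → ∀ u ∈ W, u ≠ 0 → R u (α + β) → Bigger R (2 * finrank K W + 1) := by
    intro hβ0 u hu hu0 huR
    have hαu : α u = 0 := by
      have := hR.van _ _ huR
      rwa [LinearMap.add_apply, LinearMap.mem_ker.1 (hβ hu), add_zero] at this
    refine hX.bigger_of_row hR (hX.row_of u hu β hu0 hβ0 hβ ?_)
    have := (hR.rightSet u).sub_mem (hR.mem_rightSet.2 huR)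
      (hR.mem_rightSet.2 (hG.mem u hu α hα hαu))
    rwa [add_sub_cancel_left] at this
  by_cases hc0 : c = 0
  · subst hc0
    by_cases hβ0 : β = 0
    · subst hβ0
      exact absurd ⟨by rwa [add_zero], by rwa [add_zero]⟩ hin
    · rw [add_zero] at hv h
      exact claimRow hβ0 w hw hv h
  by_cases hα0 : α = 0
  · subst hα0
    have hw0 : w ≠ 0 := fun e => hout ⟨by rw [e, zero_add]; exact hc, by rwa [zero_add]⟩
    have hβ0 : β ≠ 0 := fun e => hφ (by rw [e, add_zero])
    obtain ⟨u, hu, hu0, γ, hγC, hγ, hγw⟩ := hX.sep' w hw hw0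
    exact claimRow hβ0 u hu hu0 (hR.comm_left h hγ
      (by rw [zero_add]; exact LinearMap.mem_ker.1 (hβ hu))
      (by rw [map_add, LinearMap.mem_ker.1 (hγC hc), add_zero]; exact hγw))
  obtain ⟨x, hx, hαx⟩ : ∃ x ∈ W, α x ≠ 0 := by
    by_contra h'; push Not at h'; exact hα0 (eq_zero_of_forall_left hG.hc hα h')
  obtain ⟨y, hy, hyn⟩ := exists_mem_notMem_span_pair hG.dim x w
  obtain ⟨γ, hγC, hγS, hγy⟩ := exists_functional hG.hc hy (Submodule.span_le.2 (by
    rintro z (rfl | rfl)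
    · exact hx
    · exact hw)) hyn
  have hγx : γ x = 0 := LinearMap.mem_ker.1 (hγS (Submodule.subset_span (Set.mem_insert _ _)))
  have hγw : γ w = 0 := LinearMap.mem_ker.1
    (hγS (Submodule.subset_span (Set.mem_insert_of_mem _ rfl)))
  exact claimCol hc0 γ (fun e => hγy (by rw [e, LinearMap.zero_apply])) hγC
    (hR.comm_right h (hG.mem x hx γ hγC hγx)
      (by rw [map_add, hγw, LinearMap.mem_ker.1 (hγC hc), add_zero])
      (by rw [LinearMap.add_apply, LinearMap.mem_ker.1 (hβ hx), add_zero]; exact hαx))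

end Cfsg.Agent.Lib.TransvGen
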