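import Cfsg.Agent.Lib.TransvGen.Rich

/-!
# Symplectic blocks: linear algebra and the upgrade to special linear blocks
-/

set_option autoImplicit false
set_option linter.unusedSectionVars false

namespace Cfsg.Agent.Lib.TransvGen

open Module

universe u v

variable {K : Type u} [Field K] {V : Type v} [AddCommGroup V] [Module K V] [FiniteDimensional K V]
  {R : V → Dual K V → Prop} {W C : Submodule K V} {B : LinearMap.BilinForm K V}

/-- A vector avoiding the kernels of two functionals that are nonzero on `W`. -/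
theorem exists_avoid {f g : Dual K V} (hf : ∃ x ∈ W, f x ≠ 0) (hg : ∃ x ∈ W, g x ≠ 0) :
    ∃ z ∈ W, f z ≠ 0 ∧ g z ≠ 0 := by
  obtain ⟨x, hx, hfx⟩ := hf
  obtain ⟨y, hy, hgy⟩ := hg
  by_cases hgx : g x = 0
  · by_cases hfy : f y = 0
    · exact ⟨x + y, add_mem hx hy, by simpa [hfy] using hfx, by simpa [hgx] using hgy⟩
    · exact ⟨y, hy, hfy, hgy⟩
  · exact ⟨x, hx, hfx, hgx⟩

namespace GoodSp

variable (hG : GoodSp R W C B)
include hG

theorem skew (x y : V) : B x y = -B y x := by rw [hG.alt.neg_eq]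

theorem right (x : V) {c : V} (hc : c ∈ C) : B x c = 0 := by
  rw [hG.skew, hG.left c hc, neg_zero]

theorem ker_le (x : V) : C ≤ LinearMap.ker (B x) := fun _ hc =>
  LinearMap.mem_ker.2 (hG.right x hc)

theorem exists_ne {u : V} (hu : u ∈ W) (hu0 : u ≠ 0) : ∃ x ∈ W, B u x ≠ 0 := by
  by_contra h
  push Not at h
  exact hu0 (hG.nd u hu h)

theorem form_ne_zero {u : V} (hu : u ∈ W) (hu0 : u ≠ 0) : B u ≠ 0 := fun e => by
  obtain ⟨x, -, hx⟩ := hG.exists_ne hu hu0
  exact hx (by rw [e, LinearMap.zero_apply])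

theorem exists_ne' {u : V} (hu : u ∈ W) (hu0 : u ≠ 0) : ∃ x ∈ W, B x u ≠ 0 := by
  obtain ⟨x, hx, hxu⟩ := hG.exists_ne hu hu0
  exact ⟨x, hx, by rw [hG.skew]; exact neg_ne_zero.2 hxu⟩

/-- Functionals vanishing on `C` come from `W`. -/
theorem exists_rep {α : Dual K V} (hα : C ≤ LinearMap.ker α) : ∃ a ∈ W, B a = α := by
  let f : W →ₗ[K] Dual K W := B.compl₁₂ W.subtype W.subtype
  have hinj : Function.Injective f := by
    rw [← LinearMap.ker_eq_bot]
    refine LinearMap.ker_eq_bot'.2 fun u hu => Subtype.ext (hG.nd u u.2 fun x hx => ?_)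
    exact LinearMap.congr_fun hu ⟨x, hx⟩
  obtain ⟨a, ha⟩ := (LinearMap.injective_iff_surjective_of_finrank_eq_finrank
    Subspace.dual_finrank_eq.symm).1 hinj (α.comp W.subtype)
  refine ⟨a, a.2, LinearMap.ext fun x => ?_⟩
  obtain ⟨w, hw, c, hc, rfl⟩ := exists_parts hG.hc x
  rw [map_add, map_add, hG.right _ hc, LinearMap.mem_ker.1 (hα hc), add_zero, add_zero]
  exact LinearMap.congr_fun ha ⟨w, hw⟩

/-- Vectors with nested orthogonals are proportional. -/
theorem proportional {a b : V} (ha : a ∈ W) (ha0 : a ≠ 0) (hb : b ∈ W)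
    (h : ∀ x ∈ W, B a x = 0 → B b x = 0) : ∃ k : K, b = k • a := by
  obtain ⟨y, hy, hay⟩ := hG.exists_ne ha ha0
  refine ⟨B b y * (B a y)⁻¹, sub_eq_zero.1
    (hG.nd _ (sub_mem hb (Submodule.smul_mem _ _ ha)) fun x hx => ?_)⟩
  have h1 := h (x - (B a x * (B a y)⁻¹) • y) (sub_mem hx (Submodule.smul_mem _ _ hy)) (by simp [hay])
  rw [map_sub, map_smul, smul_eq_mul, sub_eq_zero] at h1
  rw [map_sub, map_smul, LinearMap.sub_apply, LinearMap.smul_apply, smul_eq_mul, h1]
  ring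

theorem exists_orth_not_orth {a b : V} (ha : a ∈ W) (ha0 : a ≠ 0) (hb : b ∈ W)
    (h : b ∉ K ∙ a) : ∃ x ∈ W, B a x = 0 ∧ B b x ≠ 0 := by
  by_contra hc
  push Not at hc
  obtain ⟨k, rfl⟩ := hG.proportional ha ha0 hb hc
  exact h (Submodule.smul_mem _ _ (Submodule.mem_span_singleton_self a))

theorem two_le_finrank (hne : W ≠ ⊥) : 2 ≤ finrank K W := by
  obtain ⟨u, hu, hu0⟩ := Submodule.exists_mem_ne_zero_of_ne_bot hne
  obtain ⟨x, hx, hux⟩ := hG.exists_ne hu hu0
  have hlt : K ∙ u < W := by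
    refine lt_of_le_of_ne ((Submodule.span_singleton_le_iff_mem u W).2 hu) fun e => hux ?_
    rw [← e] at hx
    obtain ⟨k, rfl⟩ := Submodule.mem_span_singleton.1 hx
    rw [map_smul, hG.alt u, smul_zero]
  have := Submodule.finrank_lt_finrank_of_lt hlt
  rw [finrank_span_singleton hu0] at this
  omega

theorem rich (hR : Sys R) (hne : W ≠ ⊥) : Rich R W C where
  hc := hG.hc
  fix := hG.fix
  dim := hG.two_le_finrank hne
  sep α hα hα0 := by
    obtain ⟨a, ha, rfl⟩ := hG.exists_rep hα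
    obtain ⟨u, hu, hau⟩ : ∃ u ∈ W, B a u ≠ 0 :=
      hG.exists_ne ha fun e => hα0 (by rw [e, map_zero])
    exact ⟨u, hu, B u, hG.ker_le u,
      hG.form_ne_zero hu fun e => hau (by rw [e, map_zero]), hG.mem u hu, hau⟩
  sep' w hw hw0 := by
    obtain ⟨u, hu, huw⟩ := hG.exists_ne' hw hw0
    exact ⟨u, hu, fun e => huw (by rw [e, map_zero, LinearMap.zero_apply]), B u, hG.ker_le u,
      hG.mem u hu, huw⟩
  row_of u₀ hu₀ β hu0 hβ hβW h := by
    refine ⟨hβ, hβW, ?_⟩
    obtain ⟨x₀, hx₀, hne₀⟩ := hG.exists_ne hu₀ hu0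
    exact fun u hu => le_of_forall_notMem (S := hR.leftSet β) (H := LinearMap.ker (B u₀)) hx₀
      (by simpa using hne₀) (fun x hx hxn => hR.comm_left h (hG.mem x hx)
        (LinearMap.mem_ker.1 (hβW hx))
        (by rw [hG.skew]; exact neg_ne_zero.2 (by simpa using hxn))) hu
  col_of c hc γ₀ hc0 hγ0 hγ₀C h := by
    refine ⟨hc0, hc, fun γ hγ => ?_⟩
    obtain ⟨a, ha, rfl⟩ := hG.exists_rep hγ
    obtain ⟨a₀, ha₀, rfl⟩ := hG.exists_rep hγ₀C
    obtain ⟨x₀, hx₀, hne₀⟩ := hG.exists_ne ha₀ fun e => hγ0 (by rw [e, map_zero])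
    exact le_of_forall_notMem (S := (hR.rightSet c).comap B) (H := LinearMap.ker (B a₀)) hx₀
      (by simpa using hne₀) (fun x hx hxn => hR.comm_right h (hG.mem x hx) (hG.right x hc)
        (by simpa using hxn)) ha

/-- A transvection of `W` outside `Sp(W)` gives all those of `SL(W)`. -/
theorem upgrade (hR : Sys R) {w a : V} (hw : w ∈ W) (hw0 : w ≠ 0) (ha : a ∈ W)
    (haw : a ∉ K ∙ w) (h : R w (B a)) : GoodSL R W C := by
  have hBaw : B a w = 0 := hR.van _ _ h
  obtain ⟨x₀, hx₀, hwx₀, hax₀⟩ := hG.exists_orth_not_orth hw hw0 ha haw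
  have hdim : 3 ≤ finrank K W := by
    obtain ⟨y, hy, hwy⟩ := hG.exists_ne hw hw0
    have h1 : K ∙ w < K ∙ w ⊔ K ∙ a := by
      refine lt_of_le_of_ne le_sup_left fun e => haw ?_
      rw [e]
      exact Submodule.mem_sup_right (Submodule.mem_span_singleton_self a)
    have h2 : K ∙ w ⊔ K ∙ a < W := by
      refine lt_of_le_of_ne (sup_le ((Submodule.span_singleton_le_iff_mem w W).2 hw)
        ((Submodule.span_singleton_le_iff_mem a W).2 ha)) fun e => hwy ?_
      rw [← e] at hy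
      obtain ⟨_, h', _, h'', rfl⟩ := Submodule.mem_sup.1 hy
      obtain ⟨i, rfl⟩ := Submodule.mem_span_singleton.1 h'
      obtain ⟨j, rfl⟩ := Submodule.mem_span_singleton.1 h''
      rw [map_add, map_smul, map_smul, hG.alt w, hG.skew w a, hBaw]
      simp
    have := Submodule.finrank_lt_finrank_of_lt h1
    have := Submodule.finrank_lt_finrank_of_lt h2
    rw [finrank_span_singleton hw0] at *
    omega
  have hfull : ∀ b ∈ W, B b w = 0 → R w (B b) := by
    intro b hb hbw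
    refine le_of_forall_notMem (W := W ⊓ LinearMap.ker (B w)) (S := (hR.rightSet w).comap B)
      (H := LinearMap.ker (B a)) (x₀ := x₀) ⟨hx₀, by simpa using hwx₀⟩ (by simpa using hax₀)
      (fun x hx hxn => hR.comm_right h (hG.mem x hx.1) ?_ (by simpa using hxn))
      ⟨hb, by simp [hG.skew w b, hbw]⟩
    rw [hG.skew, LinearMap.mem_ker.1 hx.2, neg_zero]
  have hstep : ∀ u' ∈ W, (∀ b ∈ W, B b u' = 0 → R u' (B b)) → ∀ u ∈ W, B u' u ≠ 0 →
      ∀ b ∈ W, B b u = 0 → R u (B b) := by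
    intro u' hu' hF u hu huu b hb hbu
    set k := B b u' * (B u u')⁻¹
    have hne : B u u' ≠ 0 := by rw [hG.skew]; exact neg_ne_zero.2 huu
    have h0 : B (b - k • u) u' = 0 := by simp [k, hne]
    have h1 : R u (B (b - k • u)) := hR.comm_left (hF _ (sub_mem hb (Submodule.smul_mem _ _ hu)) h0)
      (hG.mem u hu) (by simp [hbu, hG.alt u]) hne
    have h2 := hR.addr _ _ _ h1 (hR.smulr k _ _ (hG.mem u hu))
    rwa [map_sub, map_smul, sub_add_cancel] at h2
  refine ⟨hG.hc, hG.fix, hdim, fun u hu γ hγ hγu => ?_⟩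
  obtain ⟨b, hb, rfl⟩ := hG.exists_rep hγ
  by_cases hu0 : u = 0
  · rw [hu0]; exact hR.zl _
  obtain ⟨z, hz, hwz, huz⟩ := exists_avoid (hG.exists_ne hw hw0) (hG.exists_ne hu hu0)
  exact hstep z hz (hstep w hw hfull z hz hwz) u hu
    (by rw [hG.skew]; exact neg_ne_zero.2 huz) b hb hγu

end GoodSp

end Cfsg.Agent.Lib.TransvGen
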