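import Cfsg.Agent.Lib.TransvGen.SpBasic

/-!
# Extending a symplectic block by a hyperbolic pair
-/

set_option autoImplicit false
set_option linter.unusedSectionVars false

namespace Cfsg.Agent.Lib.TransvGen

open Module

universe u v

variable {K : Type u} [Field K] {V : Type v} [AddCommGroup V] [Module K V] [FiniteDimensional K V]
  {R : V → Dual K V → Prop} {W C : Submodule K V} {B : LinearMap.BilinForm K V}

/-- The centres `x` with `τ_x` present spread along themselves. -/
theorem step_centre (hR : Sys R) {B' : LinearMap.BilinForm K V} (hB : B'.IsAlt) {x z : V}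
    (hx : R x (B' x)) (hz : R z (B' z)) (hzx : B' z x ≠ 0) (r : K) :
    R (x + r • z) (B' (x + r • z)) := by
  have h := hR.conj x (B' x) z ((r / B' z x) • B' z) hx (hR.smulr _ _ _ hz)
  have hsk : B' x z = -B' z x := by rw [hB.neg_eq]
  have e1 : ((r / B' z x) • B' z) x = r := by
    rw [LinearMap.smul_apply, smul_eq_mul, div_mul_cancel₀ r hzx]
  have e2 : B' x - B' x z • (r / B' z x) • B' z = B' (x + r • z) := by
    rw [map_add, map_smul, hsk, smul_smul, neg_mul, mul_div_cancel₀ r hzx, neg_smul, sub_neg_eq_add]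
  rwa [e1, e2] at h

/-- A hyperbolic pair of transvections outside, linked to the block, enlarges it. -/
theorem extend_sp (hR : Sys R) (hG : GoodSp R W C B) {c c' : V} {β β' : Dual K V} (hc : c ∈ C)
    (hc' : c' ∈ C) (hβ : W ≤ LinearMap.ker β) (hβ' : W ≤ LinearMap.ker β') (hβc : β c = 0)
    (hβc' : β' c' = 0) (hs : β c' ≠ 0) (ht : β' c = -β c') (hRc : R c β) (hRc' : R c' β')
    (hlink : ∀ u ∈ W, u ≠ 0 → R (u + c) (B u + β)) : Bigger R (2 * finrank K W) := by
  set s := β c' with hsdef
  set B' : LinearMap.BilinForm K V :=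
    B + (-s⁻¹) • (β'.smulRight β - β.smulRight β') with hB'
  have hB'app : ∀ x y, B' x y = B x y + -s⁻¹ * (β' x * β y - β x * β' y) := fun x y => by
    simp [hB']
  have halt : B'.IsAlt := fun x => by rw [hB'app, hG.alt x]; ring
  have hB'c : B' c = β := LinearMap.ext fun y => by
    rw [hB'app, hG.left c hc, ht, hβc]
    field_simp
    ring
  have hB'c' : B' c' = β' := LinearMap.ext fun y => by
    rw [hB'app, hG.left c' hc', hβc', ← hsdef]
    field_simp
    ring
  have hB'W : ∀ u ∈ W, B' u = B u := fun u hu => LinearMap.ext fun y => by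
    rw [hB'app, LinearMap.mem_ker.1 (hβ hu), LinearMap.mem_ker.1 (hβ' hu)]
    ring
  set C' := C ⊓ LinearMap.ker β ⊓ LinearMap.ker β' with hC'
  set W' := W ⊔ (K ∙ c ⊔ K ∙ c') with hW'
  have hc0 : c ≠ 0 := fun e => hs (by simpa [e] using ht)
  have hc'0 : c' ≠ 0 := fun e => hs (by simpa [e] using hsdef)
  have hmem : ∀ x ∈ W', ∃ u ∈ W, ∃ i j : K, x = u + i • c + j • c' := by
    intro x hx
    obtain ⟨u, hu, z, hz, rfl⟩ := Submodule.mem_sup.1 hx
    obtain ⟨_, h1, _, h2, rfl⟩ := Submodule.mem_sup.1 hz
    obtain ⟨i, rfl⟩ := Submodule.mem_span_singleton.1 h1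
    obtain ⟨j, rfl⟩ := Submodule.mem_span_singleton.1 h2
    exact ⟨u, hu, i, j, (add_assoc _ _ _).symm⟩
  have hpq : ∀ u ∈ W, ∀ i j : K, β (u + i • c + j • c') = j * s ∧
      β' (u + i • c + j • c') = -(i * s) := by
    intro u hu i j
    simp only [map_add, map_smul, smul_eq_mul, LinearMap.mem_ker.1 (hβ hu),
      LinearMap.mem_ker.1 (hβ' hu), hβc, hβc', ← hsdef, ht]
    constructor <;> ring
  have hcompl : IsCompl W' C' := by
    refine IsCompl.of_eq ?_ ?_
    · rw [Submodule.eq_bot_iff]
      rintro x ⟨hx, ⟨hxC, hxβ⟩, hxβ'⟩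
      obtain ⟨u, hu, i, j, rfl⟩ := hmem x hx
      obtain ⟨e1, e2⟩ := hpq u hu i j
      rw [SetLike.mem_coe, LinearMap.mem_ker, e1, mul_eq_zero, or_iff_left hs] at hxβ
      rw [SetLike.mem_coe, LinearMap.mem_ker, e2, neg_eq_zero, mul_eq_zero, or_iff_left hs] at hxβ'
      subst hxβ hxβ'
      simp only [zero_smul, add_zero] at hxC ⊢
      exact Submodule.disjoint_def.1 hG.hc.disjoint u hu hxC
    · rw [eq_top_iff]
      intro x _
      obtain ⟨w, hw, d, hd, rfl⟩ := exists_parts hG.hc x
      set i := -(β' d / s)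
      set j := β d / s
      refine Submodule.mem_sup.2 ⟨w + (i • c + j • c'), add_mem (Submodule.mem_sup_left hw)
        (Submodule.mem_sup_right (add_mem
          (Submodule.mem_sup_left (Submodule.smul_mem _ _ (Submodule.mem_span_singleton_self c)))
          (Submodule.mem_sup_right (Submodule.smul_mem _ _ (Submodule.mem_span_singleton_self c'))))),
        d - (i • c + j • c'), ⟨⟨sub_mem hd (add_mem (Submodule.smul_mem _ _ hc)
          (Submodule.smul_mem _ _ hc')), ?_⟩, ?_⟩, by abel⟩
      · simp [hβc, ← hsdef, j, hs]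
      · simp [hβc', ht, i, hs]
  have hfix' : fixR R ≤ C' := le_inf (le_inf hG.fix fun x hx => mem_fixR.1 hx c β hRc hc0)
    fun x hx => mem_fixR.1 hx c' β' hRc' hc'0
  have hleft : ∀ d ∈ C', ∀ x, B' d x = 0 := by
    rintro d ⟨⟨hd, hdβ⟩, hdβ'⟩ x
    rw [hB'app, hG.left d hd, LinearMap.mem_ker.1 hdβ, LinearMap.mem_ker.1 hdβ']
    ring
  have hnd : ∀ x ∈ W', (∀ y ∈ W', B' x y = 0) → x = 0 := by
    intro x hx h
    obtain ⟨u, hu, i, j, rfl⟩ := hmem x hx
    obtain ⟨e1, e2⟩ := hpq u hu i j
    have h1 := h c (Submodule.mem_sup_right (Submodule.mem_sup_left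
      (Submodule.mem_span_singleton_self c)))
    have h2 := h c' (Submodule.mem_sup_right (Submodule.mem_sup_right
      (Submodule.mem_span_singleton_self c')))
    rw [hB'app, hG.right _ hc, e1, e2, ht, hβc] at h1
    rw [hB'app, hG.right _ hc', e1, e2, hβc', ← hsdef] at h2
    have hj : j = 0 := by
      field_simp at h1
      simpa [hs] using h1
    have hi : i = 0 := by
      field_simp at h2
      simpa [hs] using h2
    subst hi hj
    simp only [zero_smul, add_zero] at h ⊢
    refine hG.nd u hu fun y hy => ?_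
    have := h y (Submodule.mem_sup_left hy)
    rwa [hB'W u hu] at this
  have hZc : R c (B' c) := by rw [hB'c]; exact hRc
  have hZc' : R c' (B' c') := by rw [hB'c']; exact hRc'
  have hmain : ∀ u ∈ W, ∀ i j : K, R (u + i • c + j • c') (B' (u + i • c + j • c')) := by
    intro u hu i j
    by_cases hij : i = 0 ∧ j = 0
    · simp only [hij.1, hij.2, zero_smul, add_zero, hB'W u hu]
      exact hG.mem u hu
    have hstart : R (u + c) (B' (u + c)) := by
      by_cases hu0 : u = 0
      · simpa [hu0] using hZc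
      · rw [map_add, hB'W u hu, hB'c]; exact hlink u hu hu0
    have hA : ∀ a b : K, B' c (u + a • c + b • c') = b * s ∧
        B' c' (u + a • c + b • c') = -(a * s) := fun a b => by
      rw [hB'c, hB'c']; exact hpq u hu a b
    have hz' : ∀ q : K, R (u + c + q • c') (B' (u + c + q • c')) := fun q =>
      step_centre hR halt hstart hZc' (by
        have := (hA 1 0).2
        rw [one_smul, zero_smul, add_zero, one_mul] at this
        rw [this]
        exact neg_ne_zero.2 hs) q
    have hz : ∀ q : K, q ≠ 0 → ∀ a : K, R (u + a • c + q • c') (B' (u + a • c + q • c')) := by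
      intro q hq a
      have h := step_centre hR halt (hz' q) hZc (by
        have := (hA 1 q).1
        rw [one_smul] at this
        rw [this]
        exact mul_ne_zero hq hs) (a - 1)
      have e : u + c + q • c' + (a - 1) • c = u + a • c + q • c' := by
        rw [sub_smul, one_smul]; abel
      rwa [e] at h
    by_cases hj : j = 0
    · have hi : i ≠ 0 := fun e => hij ⟨e, hj⟩
      subst hj
      have h := step_centre hR halt (hz 1 one_ne_zero i) hZc'
        (by rw [(hA i 1).2]; exact neg_ne_zero.2 (mul_ne_zero hi hs)) (-1)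
      have e : u + i • c + (1 : K) • c' + (-1 : K) • c' = u + i • c + (0 : K) • c' := by
        rw [zero_smul, neg_smul, one_smul]; abel
      rwa [e] at h
    · exact hz j hj i
  refine ⟨W', C', Or.inr ⟨B', ⟨hcompl, hfix', halt, hleft, hnd, fun x hx => ?_⟩, ?_, ?_⟩⟩
  · obtain ⟨u, hu, i, j, rfl⟩ := hmem x hx
    exact hmain u hu i j
  · exact fun e => hc0 ((Submodule.eq_bot_iff _).1 e c (Submodule.mem_sup_right
      (Submodule.mem_sup_left (Submodule.mem_span_singleton_self c))))
  · have hlt : W < W' := lt_of_le_of_ne le_sup_left fun e => hc0 (Submodule.disjoint_def.1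
      hG.hc.disjoint c (e ▸ Submodule.mem_sup_right (Submodule.mem_sup_left
        (Submodule.mem_span_singleton_self c))) hc)
    have := Submodule.finrank_lt_finrank_of_lt hlt
    omega

end Cfsg.Agent.Lib.TransvGen
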